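import Mathlib

set_option autoImplicit false
set_option linter.unusedSectionVars false
set_option linter.unusedVariables false

open Matrix

namespace Cfsg.Agent.Lib.Helper79.PSp4

variable {F : Type*} [Field F]

/-- An explicit 4 × 4 matrix in block form. -/
def m4 (a11 a12 a13 a14 a21 a22 a23 a24 a31 a32 a33 a34 a41 a42 a43 a44 : F) :
    Matrix (Fin 2 ⊕ Fin 2) (Fin 2 ⊕ Fin 2) F :=
  Matrix.fromBlocks !![a11, a12; a21, a22] !![a13, a14; a23, a24]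
    !![a31, a32; a41, a42] !![a33, a34; a43, a44]

theorem m4_mul (a11 a12 a13 a14 a21 a22 a23 a24 a31 a32 a33 a34 a41 a42 a43 a44
    b11 b12 b13 b14 b21 b22 b23 b24 b31 b32 b33 b34 b41 b42 b43 b44 : F) :
    m4 a11 a12 a13 a14 a21 a22 a23 a24 a31 a32 a33 a34 a41 a42 a43 a44 *
      m4 b11 b12 b13 b14 b21 b22 b23 b24 b31 b32 b33 b34 b41 b42 b43 b44 =
    m4 (a11*b11 + a12*b21 + (a13*b31 + a14*b41)) (a11*b12 + a12*b22 + (a13*b32 + a14*b42)) (a11*b13 + a12*b23 + (a13*b33 + a14*b43)) (a11*b14 + a12*b24 + (a13*b34 + a14*b44))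
       (a21*b11 + a22*b21 + (a23*b31 + a24*b41)) (a21*b12 + a22*b22 + (a23*b32 + a24*b42)) (a21*b13 + a22*b23 + (a23*b33 + a24*b43)) (a21*b14 + a22*b24 + (a23*b34 + a24*b44))
       (a31*b11 + a32*b21 + (a33*b31 + a34*b41)) (a31*b12 + a32*b22 + (a33*b32 + a34*b42)) (a31*b13 + a32*b23 + (a33*b33 + a34*b43)) (a31*b14 + a32*b24 + (a33*b34 + a34*b44))
       (a41*b11 + a42*b21 + (a43*b31 + a44*b41)) (a41*b12 + a42*b22 + (a43*b32 + a44*b42)) (a41*b13 + a42*b23 + (a43*b33 + a44*b43)) (a41*b14 + a42*b24 + (a43*b34 + a44*b44)) := by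
  unfold m4
  rw [Matrix.fromBlocks_multiply]
  simp only [Matrix.mul_fin_two, Matrix.of_add_of, Matrix.add_cons, Matrix.head_cons, Matrix.tail_cons, Matrix.empty_add_empty]

theorem m4_eta (M : Matrix (Fin 2 ⊕ Fin 2) (Fin 2 ⊕ Fin 2) F) :
    M = m4 (M (.inl 0) (.inl 0)) (M (.inl 0) (.inl 1)) (M (.inl 0) (.inr 0)) (M (.inl 0) (.inr 1))
           (M (.inl 1) (.inl 0)) (M (.inl 1) (.inl 1)) (M (.inl 1) (.inr 0)) (M (.inl 1) (.inr 1))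
           (M (.inr 0) (.inl 0)) (M (.inr 0) (.inl 1)) (M (.inr 0) (.inr 0)) (M (.inr 0) (.inr 1))
           (M (.inr 1) (.inl 0)) (M (.inr 1) (.inl 1)) (M (.inr 1) (.inr 0)) (M (.inr 1) (.inr 1)) := by
  ext i j
  rcases i with i | i <;> rcases j with j | j <;> fin_cases i <;> fin_cases j <;> rfl

theorem m4_transpose (a11 a12 a13 a14 a21 a22 a23 a24 a31 a32 a33 a34 a41 a42 a43 a44 : F) :
    (m4 a11 a12 a13 a14 a21 a22 a23 a24 a31 a32 a33 a34 a41 a42 a43 a44)ᵀ =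
      m4 a11 a21 a31 a41 a12 a22 a32 a42 a13 a23 a33 a43 a14 a24 a34 a44 := by
  ext i j
  rcases i with i | i <;> rcases j with j | j <;> fin_cases i <;> fin_cases j <;> rfl

theorem m4_J : Matrix.J (Fin 2) F = m4 0 0 (-1) 0 0 0 0 (-1) 1 0 0 0 0 1 0 0 := by
  ext i j
  rcases i with i | i <;> rcases j with j | j <;> fin_cases i <;> fin_cases j <;> simp [m4, Matrix.J]

theorem m4_one : (1 : Matrix (Fin 2 ⊕ Fin 2) (Fin 2 ⊕ Fin 2) F) = m4 1 0 0 0 0 1 0 0 0 0 1 0 0 0 0 1 := by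
  ext i j
  rcases i with i | i <;> rcases j with j | j <;> fin_cases i <;> fin_cases j <;> simp [m4]

theorem m4_neg (a11 a12 a13 a14 a21 a22 a23 a24 a31 a32 a33 a34 a41 a42 a43 a44 : F) :
    -(m4 a11 a12 a13 a14 a21 a22 a23 a24 a31 a32 a33 a34 a41 a42 a43 a44) =
      m4 (-a11) (-a12) (-a13) (-a14) (-a21) (-a22) (-a23) (-a24) (-a31) (-a32) (-a33) (-a34) (-a41) (-a42) (-a43) (-a44) := by
  ext i j
  rcases i with i | i <;> rcases j with j | j <;> fin_cases i <;> fin_cases j <;> rfl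

theorem m4_congr {a11 a12 a13 a14 a21 a22 a23 a24 a31 a32 a33 a34 a41 a42 a43 a44
    b11 b12 b13 b14 b21 b22 b23 b24 b31 b32 b33 b34 b41 b42 b43 b44 : F}
    (h11 : a11 = b11) (h12 : a12 = b12) (h13 : a13 = b13) (h14 : a14 = b14)
    (h21 : a21 = b21) (h22 : a22 = b22) (h23 : a23 = b23) (h24 : a24 = b24)
    (h31 : a31 = b31) (h32 : a32 = b32) (h33 : a33 = b33) (h34 : a34 = b34)
    (h41 : a41 = b41) (h42 : a42 = b42) (h43 : a43 = b43) (h44 : a44 = b44) :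
    m4 a11 a12 a13 a14 a21 a22 a23 a24 a31 a32 a33 a34 a41 a42 a43 a44 =
      m4 b11 b12 b13 b14 b21 b22 b23 b24 b31 b32 b33 b34 b41 b42 b43 b44 := by
  subst h11 h12 h13 h14 h21 h22 h23 h24 h31 h32 h33 h34 h41 h42 h43 h44
  rfl

theorem m4_inj {a11 a12 a13 a14 a21 a22 a23 a24 a31 a32 a33 a34 a41 a42 a43 a44
    b11 b12 b13 b14 b21 b22 b23 b24 b31 b32 b33 b34 b41 b42 b43 b44 : F}
    (h : m4 a11 a12 a13 a14 a21 a22 a23 a24 a31 a32 a33 a34 a41 a42 a43 a44 =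
      m4 b11 b12 b13 b14 b21 b22 b23 b24 b31 b32 b33 b34 b41 b42 b43 b44) :
    (a11 = b11 ∧ a12 = b12 ∧ a13 = b13 ∧ a14 = b14) ∧ (a21 = b21 ∧ a22 = b22 ∧ a23 = b23 ∧ a24 = b24) ∧
    (a31 = b31 ∧ a32 = b32 ∧ a33 = b33 ∧ a34 = b34) ∧ (a41 = b41 ∧ a42 = b42 ∧ a43 = b43 ∧ a44 = b44) := by
  have e := fun i j => congrFun (congrFun h i) j
  exact ⟨⟨e (.inl 0) (.inl 0), e (.inl 0) (.inl 1), e (.inl 0) (.inr 0), e (.inl 0) (.inr 1)⟩,
    ⟨e (.inl 1) (.inl 0), e (.inl 1) (.inl 1), e (.inl 1) (.inr 0), e (.inl 1) (.inr 1)⟩,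
    ⟨e (.inr 0) (.inl 0), e (.inr 0) (.inl 1), e (.inr 0) (.inr 0), e (.inr 0) (.inr 1)⟩,
    ⟨e (.inr 1) (.inl 0), e (.inr 1) (.inl 1), e (.inr 1) (.inr 0), e (.inr 1) (.inr 1)⟩⟩

/-- Membership in the symplectic group from the six column relations. -/
theorem m4_mem_of {a11 a12 a13 a14 a21 a22 a23 a24 a31 a32 a33 a34 a41 a42 a43 a44 : F}
    (h13 : -a11*a33 - a21*a43 + a31*a13 + a41*a23 = -1)
    (h24 : -a12*a34 - a22*a44 + a32*a14 + a42*a24 = -1)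
    (h12 : -a11*a32 - a21*a42 + a31*a12 + a41*a22 = 0)
    (h14 : -a11*a34 - a21*a44 + a31*a14 + a41*a24 = 0)
    (h23 : -a12*a33 - a22*a43 + a32*a13 + a42*a23 = 0)
    (h34 : -a13*a34 - a23*a44 + a33*a14 + a43*a24 = 0) :
    m4 a11 a12 a13 a14 a21 a22 a23 a24 a31 a32 a33 a34 a41 a42 a43 a44 ∈ Matrix.symplecticGroup (Fin 2) F := by
  rw [SymplecticGroup.mem_iff', m4_transpose, m4_J, m4_mul, m4_mul]
  refine m4_congr ?_ ?_ ?_ ?_ ?_ ?_ ?_ ?_ ?_ ?_ ?_ ?_ ?_ ?_ ?_ ?_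
  · ring
  · linear_combination h12
  · linear_combination h13
  · linear_combination h14
  · linear_combination (-1 : F) * h12
  · ring
  · linear_combination h23
  · linear_combination h24
  · linear_combination (-1 : F) * h13
  · linear_combination (-1 : F) * h23
  · ring
  · linear_combination h34
  · linear_combination (-1 : F) * h14
  · linear_combination (-1 : F) * h24
  · linear_combination (-1 : F) * h34
  · ring

/-- The six column relations of a symplectic matrix. -/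
theorem m4_rel {a11 a12 a13 a14 a21 a22 a23 a24 a31 a32 a33 a34 a41 a42 a43 a44 : F}
    (h : m4 a11 a12 a13 a14 a21 a22 a23 a24 a31 a32 a33 a34 a41 a42 a43 a44 ∈ Matrix.symplecticGroup (Fin 2) F) :
    (-a11*a33 - a21*a43 + a31*a13 + a41*a23 = -1) ∧ (-a12*a34 - a22*a44 + a32*a14 + a42*a24 = -1) ∧ (-a11*a32 - a21*a42 + a31*a12 + a41*a22 = 0) ∧ (-a11*a34 - a21*a44 + a31*a14 + a41*a24 = 0) ∧ (-a12*a33 - a22*a43 + a32*a13 + a42*a23 = 0) ∧ (-a13*a34 - a23*a44 + a33*a14 + a43*a24 = 0) := by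
  rw [SymplecticGroup.mem_iff', m4_transpose, m4_J, m4_mul, m4_mul] at h
  obtain ⟨⟨e11, e12, e13, e14⟩, ⟨e21, e22, e23, e24⟩, ⟨e31, e32, e33, e34⟩, ⟨e41, e42, e43, e44⟩⟩ := m4_inj h
  exact ⟨by linear_combination e13, by linear_combination e24, by linear_combination e12, by linear_combination e14, by linear_combination e23, by linear_combination e34⟩

/-- The six row relations of a symplectic matrix. -/
theorem m4_rel' {a11 a12 a13 a14 a21 a22 a23 a24 a31 a32 a33 a34 a41 a42 a43 a44 : F}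
    (h : m4 a11 a12 a13 a14 a21 a22 a23 a24 a31 a32 a33 a34 a41 a42 a43 a44 ∈ Matrix.symplecticGroup (Fin 2) F) :
    (-a11*a33 - a12*a34 + a13*a31 + a14*a32 = -1) ∧ (-a21*a43 - a22*a44 + a23*a41 + a24*a42 = -1) ∧ (-a11*a23 - a12*a24 + a13*a21 + a14*a22 = 0) ∧ (-a11*a43 - a12*a44 + a13*a41 + a14*a42 = 0) ∧ (-a21*a33 - a22*a34 + a23*a31 + a24*a32 = 0) ∧ (-a31*a43 - a32*a44 + a33*a41 + a34*a42 = 0) := by
  rw [SymplecticGroup.mem_iff, m4_transpose, m4_J, m4_mul, m4_mul] at h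
  obtain ⟨⟨e11, e12, e13, e14⟩, ⟨e21, e22, e23, e24⟩, ⟨e31, e32, e33, e34⟩, ⟨e41, e42, e43, e44⟩⟩ := m4_inj h
  exact ⟨by linear_combination e13, by linear_combination e24, by linear_combination e12, by linear_combination e14, by linear_combination e23, by linear_combination e34⟩

/-- The symplectic inverse of an explicit matrix. -/
theorem m4_sinv (a11 a12 a13 a14 a21 a22 a23 a24 a31 a32 a33 a34 a41 a42 a43 a44 : F) :
    (-Matrix.J (Fin 2) F) * (m4 a11 a12 a13 a14 a21 a22 a23 a24 a31 a32 a33 a34 a41 a42 a43 a44)ᵀ * Matrix.J (Fin 2) F =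
      m4 a33 a43 (-a13) (-a23) a34 a44 (-a14) (-a24) (-a31) (-a41) a11 a21 (-a32) (-a42) a12 a22 := by
  rw [m4_transpose, m4_J, m4_neg, m4_mul, m4_mul]
  refine m4_congr ?_ ?_ ?_ ?_ ?_ ?_ ?_ ?_ ?_ ?_ ?_ ?_ ?_ ?_ ?_ ?_ <;> ring

/-- An explicit vector. -/
def v4 (x1 x2 x3 x4 : F) : Fin 2 ⊕ Fin 2 → F := Sum.elim ![x1, x2] ![x3, x4]

theorem v4_eta (v : Fin 2 ⊕ Fin 2 → F) : v = v4 (v (.inl 0)) (v (.inl 1)) (v (.inr 0)) (v (.inr 1)) := by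
  ext i
  rcases i with i | i <;> fin_cases i <;> rfl

theorem v4_inj {x1 x2 x3 x4 y1 y2 y3 y4 : F} (h : v4 x1 x2 x3 x4 = v4 y1 y2 y3 y4) :
    x1 = y1 ∧ x2 = y2 ∧ x3 = y3 ∧ x4 = y4 :=
  ⟨congrFun h (.inl 0), congrFun h (.inl 1), congrFun h (.inr 0), congrFun h (.inr 1)⟩

theorem v4_congr {x1 x2 x3 x4 y1 y2 y3 y4 : F} (h1 : x1 = y1) (h2 : x2 = y2) (h3 : x3 = y3) (h4 : x4 = y4) :
    v4 x1 x2 x3 x4 = v4 y1 y2 y3 y4 := by
  subst h1 h2 h3 h4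
  rfl

theorem m4_mulVec (a11 a12 a13 a14 a21 a22 a23 a24 a31 a32 a33 a34 a41 a42 a43 a44 x1 x2 x3 x4 : F) :
    m4 a11 a12 a13 a14 a21 a22 a23 a24 a31 a32 a33 a34 a41 a42 a43 a44 *ᵥ v4 x1 x2 x3 x4 =
      v4 (a11*x1 + a12*x2 + a13*x3 + a14*x4) (a21*x1 + a22*x2 + a23*x3 + a24*x4)
         (a31*x1 + a32*x2 + a33*x3 + a34*x4) (a41*x1 + a42*x2 + a43*x3 + a44*x4) := by
  ext i
  rcases i with i | i <;> fin_cases i <;>
    simp [m4, v4, Matrix.mulVec, dotProduct, Fintype.sum_sum_type, Fin.sum_univ_two] <;> ring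

theorem v4_smul (r x1 x2 x3 x4 : F) : r • v4 x1 x2 x3 x4 = v4 (r*x1) (r*x2) (r*x3) (r*x4) := by
  ext i
  rcases i with i | i <;> fin_cases i <;> simp [v4]

theorem v4_add (x1 x2 x3 x4 y1 y2 y3 y4 : F) :
    v4 x1 x2 x3 x4 + v4 y1 y2 y3 y4 = v4 (x1+y1) (x2+y2) (x3+y3) (x4+y4) := by
  ext i
  rcases i with i | i <;> fin_cases i <;> simp [v4]

theorem v4_sub (x1 x2 x3 x4 y1 y2 y3 y4 : F) :
    v4 x1 x2 x3 x4 - v4 y1 y2 y3 y4 = v4 (x1-y1) (x2-y2) (x3-y3) (x4-y4) := by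
  ext i
  rcases i with i | i <;> fin_cases i <;> simp [v4]

/-- The symplectic form `uᵀ J v`. -/
def om (u v : Fin 2 ⊕ Fin 2 → F) : F :=
  -u (.inl 0) * v (.inr 0) - u (.inl 1) * v (.inr 1) + u (.inr 0) * v (.inl 0) + u (.inr 1) * v (.inl 1)

theorem om_v4 (x1 x2 x3 x4 y1 y2 y3 y4 : F) :
    om (v4 x1 x2 x3 x4) (v4 y1 y2 y3 y4) = -x1*y3 - x2*y4 + x3*y1 + x4*y2 := rfl

theorem om_self (u : Fin 2 ⊕ Fin 2 → F) : om u u = 0 := by
  unfold om; ring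

theorem om_swap (u v : Fin 2 ⊕ Fin 2 → F) : om u v = -om v u := by
  unfold om; ring

theorem om_add_left (u u' v : Fin 2 ⊕ Fin 2 → F) : om (u + u') v = om u v + om u' v := by
  simp only [om, Pi.add_apply]; ring

theorem om_add_right (u v v' : Fin 2 ⊕ Fin 2 → F) : om u (v + v') = om u v + om u v' := by
  simp only [om, Pi.add_apply]; ring

theorem om_sub_right (u v v' : Fin 2 ⊕ Fin 2 → F) : om u (v - v') = om u v - om u v' := by
  simp only [om, Pi.sub_apply]; ring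

theorem om_smul_left (r : F) (u v : Fin 2 ⊕ Fin 2 → F) : om (r • u) v = r * om u v := by
  simp only [om, Pi.smul_apply, smul_eq_mul]; ring

theorem om_smul_right (r : F) (u v : Fin 2 ⊕ Fin 2 → F) : om u (r • v) = r * om u v := by
  simp only [om, Pi.smul_apply, smul_eq_mul]; ring

theorem om_mulVec {A : Matrix (Fin 2 ⊕ Fin 2) (Fin 2 ⊕ Fin 2) F} (hA : A ∈ Matrix.symplecticGroup (Fin 2) F)
    (u v : Fin 2 ⊕ Fin 2 → F) : om (A *ᵥ u) (A *ᵥ v) = om u v := by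
  rw [m4_eta A] at hA ⊢
  obtain ⟨h13, h24, h12, h14, h23, h34⟩ := m4_rel hA
  rw [v4_eta u, v4_eta v, m4_mulVec, m4_mulVec, om_v4, om_v4]
  generalize u (.inl 0) = u1, u (.inl 1) = u2, u (.inr 0) = u3, u (.inr 1) = u4,
    v (.inl 0) = v1, v (.inl 1) = v2, v (.inr 0) = v3, v (.inr 1) = v4
  linear_combination (u1*v3 - u3*v1) * h13 + (u2*v4 - u4*v2) * h24 + (u1*v2 - u2*v1) * h12 + (u1*v4 - u4*v1) * h14 + (u2*v3 - u3*v2) * h23 + (u3*v4 - u4*v3) * h34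

/-- The matrix with given columns. -/
def cm (c1 c2 c3 c4 : Fin 2 ⊕ Fin 2 → F) : Matrix (Fin 2 ⊕ Fin 2) (Fin 2 ⊕ Fin 2) F :=
  m4 (c1 (.inl 0)) (c2 (.inl 0)) (c3 (.inl 0)) (c4 (.inl 0))
     (c1 (.inl 1)) (c2 (.inl 1)) (c3 (.inl 1)) (c4 (.inl 1))
     (c1 (.inr 0)) (c2 (.inr 0)) (c3 (.inr 0)) (c4 (.inr 0))
     (c1 (.inr 1)) (c2 (.inr 1)) (c3 (.inr 1)) (c4 (.inr 1))

theorem cm_mem {c1 c2 c3 c4 : Fin 2 ⊕ Fin 2 → F} (h13 : om c1 c3 = -1) (h24 : om c2 c4 = -1)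
    (h12 : om c1 c2 = 0) (h14 : om c1 c4 = 0) (h23 : om c2 c3 = 0) (h34 : om c3 c4 = 0) :
    cm c1 c2 c3 c4 ∈ Matrix.symplecticGroup (Fin 2) F :=
  m4_mem_of h13 h24 h12 h14 h23 h34

theorem cm_mulVec (c1 c2 c3 c4 : Fin 2 ⊕ Fin 2 → F) (x1 x2 x3 x4 : F) :
    cm c1 c2 c3 c4 *ᵥ v4 x1 x2 x3 x4 = x1 • c1 + x2 • c2 + x3 • c3 + x4 • c4 := by
  unfold cm
  rw [m4_mulVec]
  ext i
  rcases i with i | i <;> fin_cases i <;> simp [v4] <;> ring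

theorem col1_of {M : Matrix (Fin 2 ⊕ Fin 2) (Fin 2 ⊕ Fin 2) F} {a b c d : F} (h : M *ᵥ v4 1 0 0 0 = v4 a b c d) :
    M (.inl 0) (.inl 0) = a ∧ M (.inl 1) (.inl 0) = b ∧ M (.inr 0) (.inl 0) = c ∧ M (.inr 1) (.inl 0) = d := by
  have e := fun i => congrFun h i
  refine ⟨?_, ?_, ?_, ?_⟩
  · simpa [Matrix.mulVec, dotProduct, Fintype.sum_sum_type, v4] using e (.inl 0)
  · simpa [Matrix.mulVec, dotProduct, Fintype.sum_sum_type, v4] using e (.inl 1)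
  · simpa [Matrix.mulVec, dotProduct, Fintype.sum_sum_type, v4] using e (.inr 0)
  · simpa [Matrix.mulVec, dotProduct, Fintype.sum_sum_type, v4] using e (.inr 1)

theorem col2_of {M : Matrix (Fin 2 ⊕ Fin 2) (Fin 2 ⊕ Fin 2) F} {a b c d : F} (h : M *ᵥ v4 0 1 0 0 = v4 a b c d) :
    M (.inl 0) (.inl 1) = a ∧ M (.inl 1) (.inl 1) = b ∧ M (.inr 0) (.inl 1) = c ∧ M (.inr 1) (.inl 1) = d := by
  have e := fun i => congrFun h i
  refine ⟨?_, ?_, ?_, ?_⟩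
  · simpa [Matrix.mulVec, dotProduct, Fintype.sum_sum_type, v4] using e (.inl 0)
  · simpa [Matrix.mulVec, dotProduct, Fintype.sum_sum_type, v4] using e (.inl 1)
  · simpa [Matrix.mulVec, dotProduct, Fintype.sum_sum_type, v4] using e (.inr 0)
  · simpa [Matrix.mulVec, dotProduct, Fintype.sum_sum_type, v4] using e (.inr 1)

/-- The group `Sp₄(F)`. -/
abbrev Sp4 (F : Type*) [Field F] : Type _ := ↥(Matrix.symplecticGroup (Fin 2) F)

theorem coe_mul' (A B : Sp4 F) : (A * B).1 = A.1 * B.1 := rfl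

theorem coe_one' : (1 : Sp4 F).1 = 1 := rfl

theorem inv_mul_coe (A : Sp4 F) : (A⁻¹).1 * A.1 = 1 := by
  rw [← coe_mul', inv_mul_cancel, coe_one']

theorem mul_inv_coe (A : Sp4 F) : A.1 * (A⁻¹).1 = 1 := by
  rw [← coe_mul', mul_inv_cancel, coe_one']

theorem isConj_of_mul_eq {X Y U : Sp4 F} (h : U.1 * X.1 = Y.1 * U.1) : IsConj X Y := by
  rw [isConj_iff]
  refine ⟨U, ?_⟩
  rw [mul_inv_eq_iff_eq_mul]
  exact Subtype.ext h

/-- `G` is a product of two conjugates of `X`. -/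
def Fact2 (X G : Sp4 F) : Prop := ∃ Y1 Y2 : Sp4 F, IsConj X Y1 ∧ IsConj X Y2 ∧ G = Y1 * Y2

theorem Fact2.conj {X G : Sp4 F} (h : Fact2 X G) (u : Sp4 F) : Fact2 X (u * G * u⁻¹) := by
  obtain ⟨Y1, Y2, h1, h2, rfl⟩ := h
  refine ⟨u * Y1 * u⁻¹, u * Y2 * u⁻¹, h1.trans (isConj_iff.2 ⟨u, rfl⟩), h2.trans (isConj_iff.2 ⟨u, rfl⟩), ?_⟩
  group

theorem Fact2.of_conj {X G : Sp4 F} (u : Sp4 F) (h : Fact2 X (u⁻¹ * G * u)) : Fact2 X G := by
  have := h.conj u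
  have e : u * (u⁻¹ * G * u) * u⁻¹ = G := by group
  rwa [e] at this

theorem Fact2.of_LU {X G V L U : Sp4 F} (hL : IsConj X L) (hU : IsConj X U) (h : V * G = L * U * V) :
    Fact2 X G := by
  refine ⟨V⁻¹ * L * V, V⁻¹ * U * V, hL.trans (isConj_iff.2 ⟨V⁻¹, by rw [inv_inv]⟩),
    hU.trans (isConj_iff.2 ⟨V⁻¹, by rw [inv_inv]⟩), ?_⟩
  have : G = V⁻¹ * (L * U * V) := by rw [← h, inv_mul_cancel_left]
  rw [this]
  group

/-- The central element `-1`. -/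
def negOne : Sp4 F := ⟨-1, SymplecticGroup.neg_mem (Submonoid.one_mem _)⟩

theorem negOne_mul_coe (A : Sp4 F) : (negOne * A).1 = -A.1 := by
  rw [coe_mul']
  show (-1 : Matrix (Fin 2 ⊕ Fin 2) (Fin 2 ⊕ Fin 2) F) * A.1 = -A.1
  rw [neg_one_mul]

theorem negOne_mem_center : (negOne : Sp4 F) ∈ Subgroup.center (Sp4 F) := by
  rw [Subgroup.mem_center_iff]
  intro g
  apply Subtype.ext
  show g.1 * (-1 : Matrix (Fin 2 ⊕ Fin 2) (Fin 2 ⊕ Fin 2) F) = (-1 : Matrix (Fin 2 ⊕ Fin 2) (Fin 2 ⊕ Fin 2) F) * g.1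
  rw [mul_neg, mul_one, neg_one_mul]

end Cfsg.Agent.Lib.Helper79.PSp4
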