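import Cfsg.Agent.Lib.Helper79.PSp4.Base

set_option autoImplicit false
set_option linter.unusedSectionVars false
set_option linter.unusedVariables false

open Matrix

namespace Cfsg.Agent.Lib.Helper79.PSp4

variable {F : Type*} [Field F]

/-- The matrix `diag(K, K⁻ᵀ)` with `K` the companion matrix of `X² - tX + n`. -/
def Xm (t n ni : F) : Matrix (Fin 2 ⊕ Fin 2) (Fin 2 ⊕ Fin 2) F := m4 0 (-n) 0 0 1 t 0 0 0 0 (ni*t) (-ni) 0 0 1 0

theorem Xm_mem (t n ni : F) (hn : n * ni = 1) : Xm t n ni ∈ Matrix.symplecticGroup (Fin 2) F := by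
  unfold Xm
  refine m4_mem_of ?_ ?_ ?_ ?_ ?_ ?_
  · ring
  · linear_combination (-1) * hn
  · ring
  · ring
  · linear_combination (t) * hn
  · ring

/-- The element `diag(K, K⁻ᵀ)` of `Sp₄(F)`. -/
def Xs (t n ni : F) (hn : n * ni = 1) : Sp4 F := ⟨Xm t n ni, Xm_mem t n ni hn⟩

theorem Xs_val (t n ni : F) (hn : n * ni = 1) : (Xs t n ni hn).1 = Xm t n ni := rfl

theorem cls_upp1 (t n ni di : F) (hn : n * ni = 1) (hd : (n - 1) * ((n + 1) ^ 2 - t ^ 2) * di = 1) (M : Sp4 F)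
    (β1 β2 β3 β4 d1 d2 d3 d4 : F)
    (hM : M.1 = m4 0 (-n) β1 β2 1 t β3 β4 0 0 d1 d2 0 0 d3 d4) : IsConj (Xs t n ni hn) M := by
  have hmem := M.2
  rw [hM] at hmem
  obtain ⟨h13, h24, h12, h14, h23, h34⟩ := m4_rel hmem
  have e3 : d3 = 1 := by linear_combination (-1 : F) * h13
  have e4 : d4 = 0 := by linear_combination (-1 : F) * h14
  have e2 : d2 = -ni := by linear_combination ni * h24 + (t * ni) * e4 - d2 * hn
  have e1 : d1 = t * ni := by linear_combination ni * h23 + (t * ni) * e3 - d1 * hn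
  have e5 : β1 = -t * β2 - n * β4 := by
    subst e1 e2 e3 e4
    linear_combination n * h34 - β1 * hn - (t * β2) * hn
  subst e1 e2 e3 e4 e5
  have hU : m4 1 0 (di*n*β2 + di*n^2*β2 - di*n^2*β3 - di*n*t^2*β2 - di*n^2*t*β4 - di*n^3*β3 + di*n^2*t^2*β2 + di*n^3*t*β4) (di*n*β4 + di*n*t*β3 - di*n^2*t*β2 - di*n^3*β4) 0 1 (di*n*β4 + di*n*t*β3 - di*n^2*t*β2 - di*n^3*β4) (-di*β3 + di*n*β2 - di*n*β3 - di*t*β4 + di*n*t*β4 + di*n^2*β2) 0 0 1 0 0 0 0 1 ∈ Matrix.symplecticGroup (Fin 2) F := by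
    refine m4_mem_of ?_ ?_ ?_ ?_ ?_ ?_
    · ring
    · ring
    · ring
    · ring
    · ring
    · ring
  refine isConj_of_mul_eq (U := ⟨_, hU⟩) ?_
  show _ * Xm t n ni = M.1 * _
  rw [hM]
  unfold Xm
  rw [m4_mul, m4_mul]
  refine m4_congr ?_ ?_ ?_ ?_ ?_ ?_ ?_ ?_ ?_ ?_ ?_ ?_ ?_ ?_ ?_ ?_
  · ring
  · ring
  · linear_combination (di*t*β2 + di*n*t*β2 - di*n*t*β3 - di*n*t^2*β4 - di*n^2*t*β3 - di*t^3*β2 + di*n*t^3*β2 + di*n^2*t^2*β4) * hn + (-n*β4 - t*β2) * hd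
  · linear_combination (-di*β2 - di*n*β2 + di*n*β3 + di*n*t*β4 + di*n^2*β3 + di*t^2*β2 - di*n*t^2*β2 - di*n^2*t*β4) * hn + (β2) * hd
  · ring
  · ring
  · linear_combination (di*t*β4 + di*t^2*β3 - di*n*t^2*β2 - di*n^2*t*β4) * hn + (β3) * hd
  · linear_combination (-di*β4 - di*t*β3 + di*n*t*β2 + di*n^2*β4) * hn + (β4) * hd
  · ring
  · ring
  · ring
  · ring
  · ring
  · ring
  · ring
  · ring

theorem cls_low1 (t n ni di : F) (hn : n * ni = 1) (hd : (n - 1) * ((n + 1) ^ 2 - t ^ 2) * di = 1) (M : Sp4 F)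
    (p1 p2 p3 p4 d1 d2 d3 d4 : F)
    (hM : M.1 = m4 0 (-n) 0 0 1 t 0 0 p1 p2 d1 d2 p3 p4 d3 d4) : IsConj (Xs t n ni hn) M := by
  have hmem := M.2
  rw [hM] at hmem
  obtain ⟨h13, h24, h12, h14, h23, h34⟩ := m4_rel hmem
  have e3 : d3 = 1 := by linear_combination (-1 : F) * h13
  have e4 : d4 = 0 := by linear_combination (-1 : F) * h14
  have e2 : d2 = -ni := by linear_combination ni * h24 + (t * ni) * e4 - d2 * hn
  have e1 : d1 = t * ni := by linear_combination ni * h23 + (t * ni) * e3 - d1 * hn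
  have e5 : p4 = t * p3 - n * p1 := by linear_combination (-1 : F) * h12
  subst e1 e2 e3 e4 e5
  have hU : m4 1 0 0 0 0 1 0 0 (di*p3 - di*n*p2 + di*n*p3 - di*n*p1*t - di*n^2*p2 + di*n^2*p1*t) (-di*n*p1 + di*p3*t - di*n*p2*t + di*n^3*p1) 1 0 (-di*n*p1 + di*p3*t - di*n*p2*t + di*n^3*p1) (-di*n*p2 - di*n*p1*t - di*n^2*p2 + di*n^2*p3 + di*p3*t^2 - di*n*p3*t^2 + di*n^2*p1*t + di*n^3*p3) 0 1 ∈ Matrix.symplecticGroup (Fin 2) F := by
    refine m4_mem_of ?_ ?_ ?_ ?_ ?_ ?_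
    · ring
    · ring
    · ring
    · ring
    · ring
    · ring
  refine isConj_of_mul_eq (U := ⟨_, hU⟩) ?_
  show _ * Xm t n ni = M.1 * _
  rw [hM]
  unfold Xm
  rw [m4_mul, m4_mul]
  refine m4_congr ?_ ?_ ?_ ?_ ?_ ?_ ?_ ?_ ?_ ?_ ?_ ?_ ?_ ?_ ?_ ?_
  · ring
  · ring
  · ring
  · ring
  · ring
  · ring
  · ring
  · ring
  · linear_combination (-di*p1 - di*p3*t + di*n*p2*t + di*n^2*p1 + di*p1*t^2 - di*n*p1*t^2) * hn + (p1) * hd
  · linear_combination (-di*p2 - di*n*p2 + di*n*p3 + di*n*p1*t + di*n^2*p3 + di*p2*t^2 - di*p3*t^2 - di*n^2*p1*t) * hn + (p2) * hd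
  · ring
  · ring
  · linear_combination (p3) * hd
  · linear_combination (-n*p1 + p3*t) * hd
  · ring
  · ring

theorem isConj_inv_inv {G : Type*} [Group G] {a b : G} (h : IsConj a b) : IsConj a⁻¹ b⁻¹ := by
  rw [isConj_iff] at h ⊢
  obtain ⟨c, rfl⟩ := h
  exact ⟨c, by group⟩

theorem cls_upp (t n ni di : F) (hn : n * ni = 1) (hd : (n - 1) * ((n + 1) ^ 2 - t ^ 2) * di = 1) (M : Sp4 F)
    (a b c d ci b11 b12 b21 b22 d11 d12 d21 d22 : F)
    (hM : M.1 = m4 a b b11 b12 c d b21 b22 0 0 d11 d12 0 0 d21 d22)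
    (htr : a + d = t) (hdet : a * d - b * c = n) (hc : c * ci = 1) : IsConj (Xs t n ni hn) M := by
  obtain rfl : d = t - a := by linear_combination htr
  obtain rfl : b = (a * (t - a) - n) * ci := by linear_combination (-b) * hc - ci * hdet
  have hT : m4 1 a 0 0 0 c 0 0 0 0 1 0 0 0 (-a*ci) ci ∈ Matrix.symplecticGroup (Fin 2) F := by
    refine m4_mem_of ?_ ?_ ?_ ?_ ?_ ?_
    · ring
    · linear_combination (-1) * hc
    · ring
    · ring
    · linear_combination (a) * hc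
    · ring
  obtain ⟨T, hTv⟩ : ∃ T : Sp4 F, T.1 = m4 1 a 0 0 0 c 0 0 0 0 1 0 0 0 (-a*ci) ci := ⟨⟨_, hT⟩, rfl⟩
  have hN : (T⁻¹ * M * T).1 = m4 0 (-n) (b11 - a*b12*ci - a*b21*ci + a^2*b22*ci^2) (b12*ci - a*b22*ci^2) 1 t (b21*ci - a*b22*ci^2) (b22*ci^2) 0 0 (d11 - a*ci*d12) (ci*d12) 0 0 (a*d11 - a*d22 + c*d21 - a^2*ci*d12) (d22 + a*ci*d12) := by
    rw [coe_mul', coe_mul', SymplecticGroup.coe_inv, hTv, hM, m4_sinv, m4_mul, m4_mul]
    refine m4_congr ?_ ?_ ?_ ?_ ?_ ?_ ?_ ?_ ?_ ?_ ?_ ?_ ?_ ?_ ?_ ?_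
    · linear_combination (-a) * hc
    · linear_combination (-n - a^2) * hc
    · ring
    · ring
    · linear_combination (1) * hc
    · linear_combination (t) * hc
    · ring
    · ring
    · ring
    · ring
    · ring
    · ring
    · ring
    · ring
    · linear_combination (-a*d22) * hc
    · linear_combination (d22) * hc
  have h1 := cls_upp1 t n ni di hn hd (T⁻¹ * M * T) _ _ _ _ _ _ _ _ hN
  refine h1.trans (isConj_iff.2 ⟨T, ?_⟩)
  group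

theorem cls_low (t n ni di : F) (hn : n * ni = 1) (hd : (n - 1) * ((n + 1) ^ 2 - t ^ 2) * di = 1) (M : Sp4 F)
    (a b c d ci c11 c12 c21 c22 d11 d12 d21 d22 : F)
    (hM : M.1 = m4 a b 0 0 c d 0 0 c11 c12 d11 d12 c21 c22 d21 d22)
    (htr : a + d = t) (hdet : a * d - b * c = n) (hc : c * ci = 1) : IsConj (Xs t n ni hn) M := by
  obtain rfl : d = t - a := by linear_combination htr
  obtain rfl : b = (a * (t - a) - n) * ci := by linear_combination (-b) * hc - ci * hdet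
  have hT : m4 1 a 0 0 0 c 0 0 0 0 1 0 0 0 (-a*ci) ci ∈ Matrix.symplecticGroup (Fin 2) F := by
    refine m4_mem_of ?_ ?_ ?_ ?_ ?_ ?_
    · ring
    · linear_combination (-1) * hc
    · ring
    · ring
    · linear_combination (a) * hc
    · ring
  obtain ⟨T, hTv⟩ : ∃ T : Sp4 F, T.1 = m4 1 a 0 0 0 c 0 0 0 0 1 0 0 0 (-a*ci) ci := ⟨⟨_, hT⟩, rfl⟩
  have hN : (T⁻¹ * M * T).1 = m4 0 (-n) 0 0 1 t 0 0 c11 (a*c11 + c*c12) (d11 - a*ci*d12) (ci*d12) (a*c11 + c*c21) (a*c*c12 + a*c*c21 + a^2*c11 + c^2*c22) (a*d11 - a*d22 + c*d21 - a^2*ci*d12) (d22 + a*ci*d12) := by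
    rw [coe_mul', coe_mul', SymplecticGroup.coe_inv, hTv, hM, m4_sinv, m4_mul, m4_mul]
    refine m4_congr ?_ ?_ ?_ ?_ ?_ ?_ ?_ ?_ ?_ ?_ ?_ ?_ ?_ ?_ ?_ ?_
    · linear_combination (-a) * hc
    · linear_combination (-n - a^2) * hc
    · ring
    · ring
    · linear_combination (1) * hc
    · linear_combination (t) * hc
    · ring
    · ring
    · ring
    · ring
    · ring
    · ring
    · ring
    · ring
    · linear_combination (-a*d22) * hc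
    · linear_combination (d22) * hc
  have h1 := cls_low1 t n ni di hn hd (T⁻¹ * M * T) _ _ _ _ _ _ _ _ hN
  refine h1.trans (isConj_iff.2 ⟨T, ?_⟩)
  group

theorem cls_inv (t n ni : F) (hn : n * ni = 1) : IsConj (Xs t n ni hn) (Xs t n ni hn)⁻¹ := by
  have hW : m4 0 0 n 0 0 0 0 (-1) (-ni) 0 0 0 0 1 0 0 ∈ Matrix.symplecticGroup (Fin 2) F := by
    refine m4_mem_of ?_ ?_ ?_ ?_ ?_ ?_
    · linear_combination (-1) * hn
    · ring
    · ring
    · ring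
    · ring
    · ring
  refine IsConj.symm (isConj_of_mul_eq (U := ⟨_, hW⟩) ?_)
  show _ * ((Xs t n ni hn)⁻¹).1 = Xm t n ni * _
  rw [SymplecticGroup.coe_inv, Xs_val]
  unfold Xm
  rw [m4_sinv, m4_mul, m4_mul]
  refine m4_congr ?_ ?_ ?_ ?_ ?_ ?_ ?_ ?_ ?_ ?_ ?_ ?_ ?_ ?_ ?_ ?_
  · ring
  · ring
  · ring
  · ring
  · ring
  · ring
  · ring
  · ring
  · ring
  · ring
  · ring
  · ring
  · ring
  · ring
  · ring
  · ring

theorem fact_U (t n ni di : F) (hn : n * ni = 1) (hd : (n - 1) * ((n + 1) ^ 2 - t ^ 2) * di = 1) (M : Sp4 F)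
    (b11 b12 b21 b22 d11 d12 d21 d22 : F)
    (hM : M.1 = m4 1 0 b11 b12 0 1 b21 b22 0 0 d11 d12 0 0 d21 d22) : Fact2 (Xs t n ni hn) M := by
  have hmem := M.2
  rw [hM] at hmem
  obtain ⟨h13, h24, h12, h14, h23, h34⟩ := m4_rel hmem
  obtain rfl : d11 = 1 := by linear_combination (-1 : F) * h13
  obtain rfl : d22 = 1 := by linear_combination (-1 : F) * h24
  obtain rfl : d12 = 0 := by linear_combination (-1 : F) * h14
  obtain rfl : d21 = 0 := by linear_combination (-1 : F) * h23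
  have hN : (M⁻¹ * Xs t n ni hn).1 = m4 0 (-n) (-b21 - b11*ni*t) (b11*ni) 1 t (-b22 - b12*ni*t) (b12*ni) 0 0 (ni*t) (-ni) 0 0 1 0 := by
    rw [coe_mul', SymplecticGroup.coe_inv, hM, Xs_val]
    unfold Xm
    rw [m4_sinv, m4_mul]
    refine m4_congr ?_ ?_ ?_ ?_ ?_ ?_ ?_ ?_ ?_ ?_ ?_ ?_ ?_ ?_ ?_ ?_
    · ring
    · ring
    · ring
    · ring
    · ring
    · ring
    · ring
    · ring
    · ring
    · ring
    · ring
    · ring
    · ring
    · ring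
    · ring
    · ring
  have h1 := cls_upp1 t n ni di hn hd (M⁻¹ * Xs t n ni hn) _ _ _ _ _ _ _ _ hN
  have h2 : IsConj (Xs t n ni hn)⁻¹ ((Xs t n ni hn)⁻¹ * M) := by
    have := isConj_inv_inv h1
    rwa [_root_.mul_inv_rev, inv_inv] at this
  refine ⟨Xs t n ni hn, (Xs t n ni hn)⁻¹ * M, IsConj.refl _, (cls_inv t n ni hn).trans h2, ?_⟩
  rw [mul_inv_cancel_left]

end Cfsg.Agent.Lib.Helper79.PSp4
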