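import Cfsg.Agent.Lib.Helper79.PSp4.Cls

set_option autoImplicit false
set_option linter.unusedSectionVars false
set_option linter.unusedVariables false
set_option maxHeartbeats 1000000

open Matrix

namespace Cfsg.Agent.Lib.Helper79.PSp4

variable {F : Type*} [Field F]

theorem fact_gen_core (t ti n ni di : F) (hn : n * ni = 1) (ht : t * ti = 1) (hd : (n - 1) * ((n + 1) ^ 2 - t ^ 2) * di = 1) (M : Sp4 F)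
    (c ci w wi c2 c2i e ei x13 x14 x23 x24 d11 d12 d21 d22 : F)
    (hc : c * ci = 1) (hw : w * wi = 1) (hc2 : c2 * c2i = 1) (he : e * ei = 1)
    (hM : M.1 = m4 0 0 x13 x14 0 0 x23 x24 c (-c2i*w + c*c2i*t) d11 d12 0 e d21 d22) : Fact2 (Xs t n ni hn) M := by
  have hVm : m4 1 0 (c2^2*ci*e*t*wi) (c2*ci*t) 0 1 (c2*ci*t) (ci*ei*t*w + c2i^2*ei^2*n^2*ti*w) 0 0 1 0 0 0 0 1 ∈ Matrix.symplecticGroup (Fin 2) F := by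
    refine m4_mem_of ?_ ?_ ?_ ?_ ?_ ?_
    · ring
    · ring
    · ring
    · ring
    · ring
    · ring
  obtain ⟨V, hV⟩ : ∃ V : Sp4 F, V.1 = m4 1 0 (c2^2*ci*e*t*wi) (c2*ci*t) 0 1 (c2*ci*t) (ci*ei*t*w + c2i^2*ei^2*n^2*ti*w) 0 0 1 0 0 0 0 1 := ⟨⟨_, hVm⟩, rfl⟩
  have hLm : m4 0 (c2*e*t*wi) 0 0 (-c2i*ei*n*ti*w) t 0 0 (ni*w) (c*c2i) (ni*t) (c2i*ei*n*ni*ti*w) (-c2*e*ni) 0 (-c2*e*ni*t*wi) 0 ∈ Matrix.symplecticGroup (Fin 2) F := by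
    refine m4_mem_of ?_ ?_ ?_ ?_ ?_ ?_
    · linear_combination (-c2*c2i*e*ei*t*ti*w*wi) * hn + (-c2*c2i*e*ei*w*wi) * ht + (-c2*c2i*e*ei) * hw + (-e*ei) * hc2 + (-1) * he
    · linear_combination (-c2*c2i*e*ei*t*ti*w*wi) * hn + (-c2*c2i*e*ei*w*wi) * ht + (-c2*c2i*e*ei) * hw + (-e*ei) * hc2 + (-1) * he
    · linear_combination (c2*e*ni*t) * hw
    · ring
    · ring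
    · ring
  obtain ⟨L, hL⟩ : ∃ L : Sp4 F, L.1 = m4 0 (c2*e*t*wi) 0 0 (-c2i*ei*n*ti*w) t 0 0 (ni*w) (c*c2i) (ni*t) (c2i*ei*n*ni*ti*w) (-c2*e*ni) 0 (-c2*e*ni*t*wi) 0 := ⟨⟨_, hLm⟩, rfl⟩
  have hU : (L⁻¹ * V * M * V⁻¹).1 = m4 0 (-c2i*n) (ci*n*t + ni*t*x13 - c2i*d21*ei*n - c2*e*ni*t*wi*x23) (ni*t*x14 - c2i*d22*ei*n - c2*e*ni*t*wi*x24 + c2i*ci*ei*n*t*w + c2i^3*ei^2*n^3*ti*w) c2 t (c2*ci*d11 - c2*ci*t^2 + ci*d21*ei*w + c2i*ei*ti*w*x13 - c2^3*ci*e*t*wi) (c2*ci*d12 - c2^2*ci*t + ci*d22*ei*w + c2i*ei*ti*w*x14 - ci*ei*t^2*w - c2i^2*ei^2*n^2*w) 0 0 (-ni*w*x13 + c2*e*ni*x23) (-ni*w*x14 + c2*e*ni*x24) 0 0 (-c*c2i*x13) (-c*c2i*x14) := by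
    rw [coe_mul', coe_mul', coe_mul', SymplecticGroup.coe_inv, SymplecticGroup.coe_inv, hV, hL, hM,
      m4_sinv, m4_sinv, m4_mul, m4_mul, m4_mul]
    refine m4_congr ?_ ?_ ?_ ?_ ?_ ?_ ?_ ?_ ?_ ?_ ?_ ?_ ?_ ?_ ?_ ?_
    · ring
    · linear_combination (-c2*c2i^2*e^2*ei^2*n*t*ti*w*wi) * hn + (-c2*c2i^2*e^2*ei^2*n*w*wi) * ht + (-c2*c2i^2*e^2*ei^2*n - c2*ci*e^2*ei*ni*t^2) * hw + (-c2i*e^2*ei^2*n) * hc2 + (-c2i*n - c2i*e*ei*n - c2*ci*e*ni*t^2) * he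
    · linear_combination (-c2*c2i^2*d21*e*ei^2*n*t*ti*w*wi + c2^2*c2i^2*ci*e^2*ei^2*n*t^2*ti*w*wi) * hn + (-c2*c2i^2*d21*e*ei^2*n*w*wi + c2^2*c2i^2*ci*e^2*ei^2*n*t*w*wi) * ht + (-c2*c2i^2*d21*e*ei^2*n - c2*ci*d21*e*ei*ni*t^2 + c2^2*c2i^2*ci*e^2*ei^2*n*t + c2^2*ci^2*e^2*ei*ni*t^3) * hw + (-c2i*d21*e*ei^2*n + ci*e^2*ei^2*n*t + c2*c2i*ci*e^2*ei^2*n*t) * hc2 + (ci*n*t - c2i*d21*ei*n + ci*e*ei*n*t - c2*ci*d21*ni*t^2 + c2^2*ci^2*e*ni*t^3) * he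
    · linear_combination (-c2*c2i^2*ci*e*ei^2*n*t^2*ti*w - c2*c2i^2*d22*e*ei^2*n*t*ti*w*wi + 2*c2*c2i^2*ci*e^2*ei^3*n*t^2*ti*w^2*wi + c2*c2i^4*e^2*ei^4*n^3*t*ti^2*w^2*wi) * hn + (-c2*c2i^2*ci*e*ei^2*n*t*w - c2*c2i^2*d22*e*ei^2*n*w*wi + 2*c2*c2i^2*ci*e^2*ei^3*n*t*w^2*wi + c2*c2i^4*e^2*ei^4*n^3*ti*w^2*wi) * ht + (-c2*c2i^2*d22*e*ei^2*n - c2*ci*d22*e*ei*ni*t^2 + 2*c2*c2i^2*ci*e^2*ei^3*n*t*w + c2*ci^2*e^2*ei^2*ni*t^3*w + c2*c2i^4*e^2*ei^4*n^3*ti*w) * hw + (-c2i*d22*e*ei^2*n - c2i*ci*e*ei^2*n*t*w + 2*c2i*ci*e^2*ei^3*n*t*w + c2i^3*e^2*ei^4*n^3*ti*w) * hc2 + (-c2i*d22*ei*n - c2*ci*d22*ni*t^2 + c2i*ci*ei*n*t*w + 2*c2i*ci*e*ei^2*n*t*w + c2*ci^2*e*ei*ni*t^3*w + c2i^3*ei^2*n^3*ti*w + c2i^3*e*ei^3*n^3*ti*w) * he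
    · linear_combination (c*c2^2*c2i*ci*e*ei*t*ti*w*wi) * hn + (c*c2^2*c2i*ci*e*ei*w*wi) * ht + (c2^2*c2i*e*ei*w*wi) * hc + (c2^2*c2i*e*ei) * hw + (c2*e*ei) * hc2 + (c2) * he
    · linear_combination (c2*c2i*ci*e*ei*t*ti*w - c2^2*c2i^2*ci*e*ei*t*ti*w^2*wi + c*c2^2*c2i^2*ci*e*ei*t^2*ti*w*wi) * hn + (c2*c2i*ci*e*ei*w - c2^2*c2i^2*ci*e*ei*w^2*wi + c*c2^2*c2i^2*ci*e*ei*t*w*wi) * ht + (c2^2*c2i^2*e*ei*t*w*wi) * hc + (c2^2*c2i^2*e*ei*t - c2^2*c2i^2*ci*e*ei*w) * hw + (e*ei*t + c2*c2i*e*ei*t - c2*c2i*ci*e*ei*w) * hc2 + (t) * he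
    · linear_combination (c2i*ei*ti*w*x13 + c2*c2i*ci*d21*ei*t*ti*w + c2^2*c2i*ci*d11*e*ei*t*ti*w*wi - c2^2*c2i*ci^2*e*ei*t^2*ti*w + c2^3*c2i^2*ci^2*e*ei*t^2*ti*w^2*wi - c*c2^3*c2i^2*ci^2*e*ei*t^3*ti*w*wi - c*c2^4*c2i*ci^2*e^2*ei*t^2*ti*w*wi^2) * hn + (c2*c2i*ci*d21*ei*w + c2^2*c2i*ci*d11*e*ei*w*wi - c2^2*c2i*ci^2*e*ei*t*w + c2^3*c2i^2*ci^2*e*ei*t*w^2*wi - c*c2^3*c2i^2*ci^2*e*ei*t^2*w*wi - c*c2^4*c2i*ci^2*e^2*ei*t*w*wi^2) * ht + (-c2^3*c2i^2*ci*e*ei*t^2*w*wi - c2^4*c2i*ci*e^2*ei*t*w*wi^2) * hc + (c2^2*c2i*ci*d11*e*ei - c2^3*c2i^2*ci*e*ei*t^2 + c2^3*c2i^2*ci^2*e*ei*t*w - c2^4*c2i*ci*e^2*ei*t*wi) * hw + (ci*d21*ei*w + c2*ci*d11*e*ei - c2*ci*e*ei*t^2 - c2^2*c2i*ci*e*ei*t^2 + c2^2*c2i*ci^2*e*ei*t*w - c2^3*ci*e^2*ei*t*wi)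 * hc2 + (c2*ci*d11 - c2*ci*t^2 - c2^3*ci*e*t*wi) * he
    · linear_combination (c2i*ei*ti*w*x14 + c2*c2i*ci*d22*ei*t*ti*w + c2^2*c2i*ci*d12*e*ei*t*ti*w*wi - c2*c2i*ci^2*e*ei^2*t^2*ti*w^2 - c*c2^3*c2i*ci^2*e*ei*t^2*ti*w*wi - c2*c2i^3*ci*e*ei^3*n^2*t*ti^2*w^2 + c2^2*c2i^2*ci^2*e*ei^2*t^2*ti*w^3*wi - c*c2^2*c2i^2*ci^2*e*ei^2*t^3*ti*w^2*wi + c2^2*c2i^4*ci*e*ei^3*n^2*t*ti^2*w^3*wi - c*c2^2*c2i^4*ci*e*ei^3*n^2*t^2*ti^2*w^2*wi) * hn + (c2*c2i*ci*d22*ei*w + c2^2*c2i*ci*d12*e*ei*w*wi - c2*c2i*ci^2*e*ei^2*t*w^2 - c*c2^3*c2i*ci^2*e*ei*t*w*wi - c2*c2i^3*ci*e*ei^3*n^2*ti*w^2 + c2^2*c2i^2*ci^2*e*ei^2*t*w^3*wi - c*c2^2*c2i^2*ci^2*e*ei^2*t^2*w^2*wi - c*c2^2*c2i^4*ci*e*ei^3*n^2*w^2*wi + c2^2*c2i^4*ci*e*ei^3*n^2*ti*w^3*wi -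 c*c2^2*c2i^4*ci*e*ei^3*n^2*t*ti*w^2*wi) * ht + (-c2^3*c2i*ci*e*ei*t*w*wi - c2^2*c2i^2*ci*e*ei^2*t^2*w^2*wi - c2^2*c2i^4*e*ei^3*n^2*w^2*wi) * hc + (c2^2*c2i*ci*d12*e*ei - c2^3*c2i*ci*e*ei*t - c2^2*c2i^2*ci*e*ei^2*t^2*w + c2^2*c2i^2*ci^2*e*ei^2*t*w^2 - c2^2*c2i^4*e*ei^3*n^2*w + c2^2*c2i^4*ci*e*ei^3*n^2*ti*w^2) * hw + (ci*d22*ei*w + c2*ci*d12*e*ei - c2^2*ci*e*ei*t - ci*e*ei^2*t^2*w - c2*c2i*ci*e*ei^2*t^2*w - c2i^2*e*ei^3*n^2*w + c2*c2i*ci^2*e*ei^2*t*w^2 - c2*c2i^3*e*ei^3*n^2*w + c2*c2i^3*ci*e*ei^3*n^2*ti*w^2) * hc2 + (c2*ci*d12 - c2^2*ci*t - ci*ei*t^2*w - c2i^2*ei^2*n^2*w) * he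
    · linear_combination (c2^2*e*ni*t - c2^2*e*ni*t*w*wi) * hc + (-c2^2*e*ni*t) * hw
    · linear_combination (c2*c2i^2*e^2*ei^2*n*ti*w) * hn + (c2^2*c2i*e*ni*t^2 - c2^2*c2i*e*ni*t^2*w*wi) * hc + (-c2^2*c2i*e*ni*t^2 + c2^2*c2i*ci*e*ni*t*w) * hw + (c2i*e^2*ei^2*n*ti*w) * hc2 + (c2*ci*e*ni*t*w + c2i*e*ei*n*ti*w) * he
    · linear_combination (c2*c2i^2*d21*e*ei^2*n*ti*w - c2^2*c2i^2*ci*e^2*ei^2*n*t*ti*w) * hn + (c2*c2i*ci*e*ei*n*w - c2^2*c2i^2*ci*e^2*ei^2*n*w) * ht + (-c2^3*c2i*ci*e*ni*t^3 - c2^4*ci*e^2*ni*t^2*wi + c2^3*c2i*ci*e*ni*t^3*w*wi + c2^4*ci*e^2*ni*t^2*w*wi^2) * hc + (-c2^2*ci*d11*e*ni*t + c2^3*c2i*ci*e*ni*t^3 - c2^3*c2i*ci^2*e*ni*t^2*w + c2^4*ci*e^2*ni*t^2*wi) * hw + (ci*e*ei*n*w - ci*e^2*ei^2*n*w +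 c2i*d21*e*ei^2*n*ti*w - c2*c2i*ci*e^2*ei^2*n*w) * hc2 + (-ci*e*ei*n*w + c2*ci*d21*ni*t*w + c2i*d21*ei*n*ti*w - c2^2*ci^2*e*ni*t^2*w) * he
    · linear_combination (c2*c2i^2*d22*e*ei^2*n*ti*w + c2*c2i^2*ci*e*ei^2*n*t*ti*w^2 - 2*c2*c2i^2*ci*e^2*ei^3*n*t*ti*w^2 + c2^2*c2i^3*ci*e*ei^2*n*t*ti*w^2 - c*c2^2*c2i^3*ci*e*ei^2*n*t^2*ti*w - c2^2*c2i^3*ci*e*ei^2*n*t*ti*w^3*wi + c*c2^2*c2i^3*ci*e*ei^2*n*t^2*ti*w^2*wi - c2*c2i^4*e^2*ei^4*n^3*ti^2*w^2) * hn + (c2i*ci*e*ei^2*n*w^2 + c2*c2i^2*ci*e*ei^2*n*w^2 - 2*c2*c2i^2*ci*e^2*ei^3*n*w^2 + c2^2*c2i^3*ci*e*ei^2*n*w^2 - c*c2^2*c2i^3*ci*e*ei^2*n*t*w - c2^2*c2i^3*ci*e*ei^2*n*w^3*wi + c*c2^2*c2i^3*ci*e*ei^2*n*t*w^2*wi) * ht + (-c2^3*ci*e*ni*t^2 + c2^3*ci*e*ni*t^2*w*wi - c2^2*c2i*ci*e*ei*ni*t^3*w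 - c2^2*c2i^3*e*ei^2*n*t*w + c2^2*c2i*ci*e*ei*ni*t^3*w^2*wi + c2^2*c2i^3*e*ei^2*n*t*w^2*wi) * hc + (-c2^2*ci*d12*e*ni*t + c2^3*ci*e*ni*t^2 + c2^2*c2i*ci*e*ei*ni*t^3*w + c2^2*c2i^3*e*ei^2*n*t*w - c2^2*c2i*ci^2*e*ei*ni*t^2*w^2 - c2^2*c2i^3*ci*e*ei^2*n*w^2) * hw + (c2i*ci*e*ei^2*n*w^2 + c2i*d22*e*ei^2*n*ti*w - 2*c2i*ci*e^2*ei^3*n*w^2 - c2i^3*e^2*ei^4*n^3*ti^2*w^2) * hc2 + (c2*ci*d22*ni*t*w + c2i*d22*ei*n*ti*w - 2*c2i*ci*e*ei^2*n*w^2 - c2*ci^2*e*ei*ni*t^2*w^2 - c2i^3*e*ei^3*n^3*ti^2*w^2) * he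
    · linear_combination (-c*c2^2*c2i*e*t*wi) * hc + (-c*c2*e*t*wi) * hc2
    · linear_combination (-c2*c2i*e*t + c2^2*c2i^2*e*t*w*wi - c*c2^2*c2i^2*e*t^2*wi) * hc + (-c2*c2i*e*t + c2^2*c2i^2*e*t) * hw + (-e*t + c2*c2i*e*t - c*c2*c2i*e*t^2*wi) * hc2
    · linear_combination (-c2*c2i*d21*t + c2^2*c2i*ci*e*t^2 - c2^2*c2i*d11*e*t*wi - c2^2*c2i*e*t^3*wi - c2^3*e^2*t^2*wi^2 + c2^3*c2i^2*e*t^3*wi - c2^3*c2i^2*ci*e*t^2*w*wi + c2^4*c2i*e^2*t^2*wi^2 + c*c2^3*c2i^2*ci*e*t^3*wi + c*c2^4*c2i*ci*e^2*t^2*wi^2) * hc + (c2^2*c2i*ci*e*t^2 - c2^3*c2i^2*ci*e*t^2) * hw + (-d21*t + c2*ci*e*t^2 - c2*d11*e*t*wi - c2^2*c2i*ci*e*t^2 + c2^2*c2i*e*t^3*wi + c2^3*e^2*t^2*wi^2) * hc2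
    · linear_combination (-c2i^2*e*ei^2*n^2*w + c*c2*c2i^3*ci*e*ei^2*n^2*w + c2*c2i^3*e*ei^2*n^2*w^2*wi - c*c2*c2i^3*e*ei^2*n^2*t*w*wi - c*c2^2*c2i^4*ci*e*ei^2*n^2*w^2*wi + c^2*c2^2*c2i^4*ci*e*ei^2*n^2*t*w*wi) * ht + (-c2*c2i*d22*t - c2^2*e*t^2*wi - c2^2*c2i*d12*e*t*wi + c2*c2i*ci*e*ei*t^2*w + c2^3*c2i*e*t^2*wi - c2*c2i*e*ei*t^3*w*wi + c*c2^3*c2i*ci*e*t^2*wi + c2*c2i^3*e*ei^2*n^2*w + c2^2*c2i^2*e*ei*t^3*w*wi - c2^2*c2i^2*ci*e*ei*t^2*w^2*wi + c*c2^2*c2i^2*ci*e*ei*t^3*w*wi - c2^2*c2i^4*e*ei^2*n^2*w^2*wi + c*c2^2*c2i^4*e*ei^2*n^2*t*w*wi) * hc + (-c2*c2i*e*ei*t^3 + c2*c2i*ci*e*ei*t^2*w + c2^2*c2i^2*e*ei*t^3 + c2*c2i^3*e*ei^2*n^2*w - c2^2*c2i^2*ci*e*ei*t^2*w - c*c2*c2i^3*e*ei^2*n^2*t - c2^2*c2i^4*e*ei^2*n^2*w +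 c*c2^2*c2i^4*e*ei^2*n^2*t) * hw + (-d22*t - c2*d12*e*t*wi + c2^2*e*t^2*wi + ci*e*ei*t^2*w + c2*c2i*e*ei*t^3 - c2*c2i*ci*e*ei*t^2*w + c2i^2*e*ei^2*n^2*w - c2*c2i^3*e*ei^2*n^2*w + c*c2*c2i^3*e*ei^2*n^2*t) * hc2
  have k1 : IsConj (Xs t n ni hn) L :=
    cls_low t n ni di hn hd L _ _ _ _ (-c2*e*ni*t*wi) _ _ _ _ _ _ _ _ hL (by ring) (by linear_combination (c2*c2i*e*ei*n*w*wi) * ht + (c2*c2i*e*ei*n) * hw + (e*ei*n) * hc2 + (n) * he) (by linear_combination (c2*c2i*e*ei*t*ti*w*wi) * hn + (c2*c2i*e*ei*w*wi) * ht + (c2*c2i*e*ei) * hw + (e*ei) * hc2 + (1) * he)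
  have k2 : IsConj (Xs t n ni hn) (L⁻¹ * V * M * V⁻¹) :=
    cls_upp t n ni di hn hd _ _ _ _ _ c2i _ _ _ _ _ _ _ _ hU (by ring) (by linear_combination (n) * hc2) hc2
  exact Fact2.of_LU (V := V) k1 k2 (by group)

theorem fact_gen (t n ni di : F) (hn : n * ni = 1) (ht : t ≠ 0) (hd : (n - 1) * ((n + 1) ^ 2 - t ^ 2) * di = 1)
    (hF : ∀ a b : F, ∃ x, x ≠ a ∧ x ≠ b) (M : Sp4 F)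
    (c r e x13 x14 x23 x24 d11 d12 d21 d22 : F) (hc : c ≠ 0) (he : e ≠ 0)
    (hM : M.1 = m4 0 0 x13 x14 0 0 x23 x24 c r d11 d12 0 e d21 d22) : Fact2 (Xs t n ni hn) M := by
  obtain ⟨c2, h0, h1⟩ := hF 0 (t * c * r⁻¹)
  have hw0 : t * c - r * c2 ≠ 0 := by
    intro h
    by_cases hr : r = 0
    · rw [hr, zero_mul, sub_zero] at h
      exact (mul_ne_zero ht hc) h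
    · apply h1
      field_simp
      linear_combination (-1 : F) * h
  obtain ⟨w, hwd⟩ : ∃ w, w = t * c - r * c2 := ⟨_, rfl⟩
  rw [← hwd] at hw0
  obtain ⟨c2i, hc2⟩ : ∃ c2i, c2 * c2i = 1 := ⟨c2⁻¹, mul_inv_cancel₀ h0⟩
  have hr : r = -c2i*w + c*c2i*t := by linear_combination (-r) * hc2 + c2i * hwd
  rw [hr] at hM
  exact fact_gen_core t t⁻¹ n ni di hn (mul_inv_cancel₀ ht) hd M c c⁻¹ w w⁻¹ c2 c2i e e⁻¹ _ _ _ _ _ _ _ _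
    (mul_inv_cancel₀ hc) (mul_inv_cancel₀ hw0) hc2 (mul_inv_cancel₀ he) hM

theorem fact_alt_core (t n ni di : F) (hn : n * ni = 1) (hd : (n - 1) * ((n + 1) ^ 2 - t ^ 2) * di = 1) (M : Sp4 F)
    (ρ ρi a2 c2 c2i x13 x14 x23 x24 d11 d12 d21 d22 : F)
    (hρ : ρ * ρi = 1) (hc2 : c2 * c2i = 1)
    (hQ : a2 * (t - a2) - (n * c2 - t * (t - a2)) * c2 - n = 0)
    (hM : M.1 = m4 0 0 x13 x14 0 0 x23 x24 0 (-ρ) d11 d12 ρ 0 d21 d22) : Fact2 (Xs t n ni hn) M := by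
  have hVm : m4 1 0 (-a2*n*ρi + n*t*ρi) (-c2*n*ρi) 0 1 (-c2*n*ρi) (a2*ρi + c2*t*ρi) 0 0 1 0 0 0 0 1 ∈ Matrix.symplecticGroup (Fin 2) F := by
    refine m4_mem_of ?_ ?_ ?_ ?_ ?_ ?_
    · ring
    · ring
    · ring
    · ring
    · ring
    · ring
  obtain ⟨V, hV⟩ : ∃ V : Sp4 F, V.1 = m4 1 0 (-a2*n*ρi + n*t*ρi) (-c2*n*ρi) 0 1 (-c2*n*ρi) (a2*ρi + c2*t*ρi) 0 0 1 0 0 0 0 1 := ⟨⟨_, hVm⟩, rfl⟩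
  have hLm : m4 0 (-n) 0 0 1 t 0 0 (c2*ni*ρ) (-a2*ni*ρ) (ni*t) (-ni) (-a2*ni*ρ + ni*t*ρ) (-c2*ρ - a2*ni*t*ρ + ni*t^2*ρ) 1 0 ∈ Matrix.symplecticGroup (Fin 2) F := by
    refine m4_mem_of ?_ ?_ ?_ ?_ ?_ ?_
    · ring
    · linear_combination (-1) * hn
    · linear_combination (-c2*ρ) * hn
    · ring
    · linear_combination (t) * hn
    · ring
  obtain ⟨L, hL⟩ : ∃ L : Sp4 F, L.1 = m4 0 (-n) 0 0 1 t 0 0 (c2*ni*ρ) (-a2*ni*ρ) (ni*t) (-ni) (-a2*ni*ρ + ni*t*ρ) (-c2*ρ - a2*ni*t*ρ + ni*t^2*ρ) 1 0 := ⟨⟨_, hLm⟩, rfl⟩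
  have hU : (L⁻¹ * V * M * V⁻¹).1 = m4 a2 (a2*t + c2*n - t^2) (x23 + a2*d21*ρi - n^2*ρi + ni*t*x13 - a2*d11*t*ρi - c2*d11*n*ρi + d11*t^2*ρi) (x24 + a2*d22*ρi + n*t*ρi + ni*t*x14 - a2*d12*t*ρi - c2*d12*n*ρi + d12*t^2*ρi) c2 (-a2 + t) (-ni*x13 + a2*d11*ρi + c2*d21*ρi - d11*t*ρi) (-n*ρi - ni*x14 + a2*d12*ρi + c2*d22*ρi - d12*t*ρi) 0 0 (a2*ni*x23*ρ - c2*ni*x13*ρ - ni*t*x23*ρ) (a2*ni*x24*ρ - c2*ni*x14*ρ - ni*t*x24*ρ) 0 0 (c2*x23*ρ + a2*ni*x13*ρ + a2*ni*t*x23*ρ - ni*t^2*x23*ρ) (c2*x24*ρ + a2*ni*x14*ρ + a2*ni*t*x24*ρ - ni*t^2*x24*ρ) := by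
    rw [coe_mul', coe_mul', coe_mul', SymplecticGroup.coe_inv, SymplecticGroup.coe_inv, hV, hL, hM,
      m4_sinv, m4_sinv, m4_mul, m4_mul, m4_mul]
    refine m4_congr ?_ ?_ ?_ ?_ ?_ ?_ ?_ ?_ ?_ ?_ ?_ ?_ ?_ ?_ ?_ ?_
    · linear_combination (-c2*t*ρ*ρi) * hn + (a2) * hρ
    · linear_combination (a2*t*ρ*ρi - t^2*ρ*ρi) * hn + (a2*t + c2*n - t^2) * hρ
    · linear_combination (-a2*d11*t*ρi - c2*d21*t*ρi + d11*t^2*ρi) * hn + (-a2*n*t*ρi + a2^2*n*ρi + a2*c2*n*t*ρi - c2*n*t^2*ρi + c2^2*n^2*ρi) * hρ + (-n*ρi) * hQ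
    · linear_combination (-a2*d12*t*ρi - c2*d22*t*ρi + d12*t^2*ρi + a2*t^2*ρ*ρi^2 - a2^2*t*ρ*ρi^2 - a2*c2*t^2*ρ*ρi^2 + c2*t^3*ρ*ρi^2 - c2^2*n*t*ρ*ρi^2) * hn + (a2*t^2*ρi - a2^2*t*ρi - a2*c2*t^2*ρi + c2*t^3*ρi - c2^2*n*t*ρi) * hρ + (t*ρi) * hQ
    · linear_combination (c2*ρ*ρi) * hn + (c2) * hρ
    · linear_combination (-a2*ρ*ρi + t*ρ*ρi) * hn + (-a2 + t) * hρ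
    · linear_combination (a2*d11*ρi + c2*d21*ρi - d11*t*ρi) * hn
    · linear_combination (a2*d12*ρi + c2*d22*ρi - d12*t*ρi - a2*t*ρ*ρi^2 + a2^2*ρ*ρi^2 + a2*c2*t*ρ*ρi^2 - c2*t^2*ρ*ρi^2 + c2^2*n*ρ*ρi^2) * hn + (-a2*t*ρi + a2^2*ρi + a2*c2*t*ρi - c2*t^2*ρi + c2^2*n*ρi) * hρ + (-ρi) * hQ
    · linear_combination (-ρ - c2^2*ρ + c2^2*ρ^2*ρi) * hn + (c2^2*ρ - a2*ni*t*ρ + a2^2*ni*ρ + a2*c2*ni*t*ρ - c2*ni*t^2*ρ) * hρ + (-ni*ρ) * hQ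
    · ring
    · linear_combination (-d21 - c2^2*d21 + c2^2*d21*ρ*ρi + a2*t^2*ρ^2*ρi^2 - 2*a2^2*t*ρ^2*ρi^2 + a2^3*ρ^2*ρi^2 - 2*a2*c2*t^2*ρ^2*ρi^2 + a2*c2^2*n*ρ^2*ρi^2 + a2^2*c2*t*ρ^2*ρi^2 + c2*t^3*ρ^2*ρi^2 - c2^2*n*t*ρ^2*ρi^2) * hn + (a2*n - n*t + a2*t^2 - 2*a2^2*t + a2^3 + c2^2*d21 - 2*a2*c2*t^2 + a2*c2^2*n - a2*d21*ni*t + a2^2*c2*t + a2^2*d21*ni + c2*t^3 - c2^2*n*t + a2*c2*d21*ni*t + a2*t^2*ρ*ρi - 2*a2^2*t*ρ*ρi + a2^3*ρ*ρi - c2*d21*ni*t^2 - 2*a2*c2*t^2*ρ*ρi + a2*c2^2*n*ρ*ρi + a2^2*c2*t*ρ*ρi + c2*t^3*ρ*ρi - c2^2*n*t*ρ*ρi) * hρ + (-a2 + t - d21*ni) * hQ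
    · linear_combination (-d22 - c2^2*d22 + c2^2*d22*ρ*ρi - a2*c2*t*ρ^2*ρi^2 + a2^2*c2*ρ^2*ρi^2 + a2*c2^2*t*ρ^2*ρi^2 - c2^2*t^2*ρ^2*ρi^2 + c2^3*n*ρ^2*ρi^2) * hn + (c2*n - a2*c2*t + a2^2*c2 + c2^2*d22 + a2*c2^2*t - a2*d22*ni*t + a2^2*d22*ni - c2^2*t^2 + c2^3*n + a2*c2*d22*ni*t - a2*c2*t*ρ*ρi + a2^2*c2*ρ*ρi - c2*d22*ni*t^2 + a2*c2^2*t*ρ*ρi - c2^2*t^2*ρ*ρi + c2^3*n*ρ*ρi) * hρ + (-c2 - d22*ni) * hQ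
    · linear_combination (-t*ρ - c2^2*t*ρ - a2*c2*ρ^2*ρi) * hn + (c2^2*t*ρ - a2*ni*t^2*ρ + a2^2*ni*t*ρ + a2*c2*ni*t^2*ρ - c2*ni*t^3*ρ) * hρ + (-ni*t*ρ) * hQ
    · linear_combination (-a2*t*ρ^2*ρi + a2^2*ρ^2*ρi + a2*c2*t*ρ^2*ρi - c2*t^2*ρ^2*ρi) * hn + (-a2*t*ρ + a2^2*ρ + a2*c2*t*ρ - c2*t^2*ρ + c2^2*n*ρ) * hρ + (-ρ) * hQ
    · linear_combination (-d21*t - c2^2*d21*t - a2*c2*d21*ρ*ρi + a2*d11*t*ρ*ρi - a2^2*d11*ρ*ρi - a2*c2*d11*t*ρ*ρi + c2*d11*t^2*ρ*ρi + a2*t^3*ρ^2*ρi^2 - 2*a2^2*t^2*ρ^2*ρi^2 + a2^3*t*ρ^2*ρi^2 - 2*a2*c2*t^3*ρ^2*ρi^2 + a2*c2^2*n*t*ρ^2*ρi^2 + a2^2*c2*t^2*ρ^2*ρi^2 + c2*t^4*ρ^2*ρi^2 - c2^2*n*t^2*ρ^2*ρi^2) * hn + (a2*d11*t + a2*n*t - a2^2*d11 + c2*n^2 - n*t^2 - a2*c2*d11*t - a2*c2*n*t + a2*t^3 + a2^2*c2*n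 - 2*a2^2*t^2 + a2^3*t + c2*d11*t^2 - c2^2*d11*n + c2^2*d21*t - 2*a2*c2*t^3 + 2*a2*c2^2*n*t - a2*d21*ni*t^2 + a2^2*c2*t^2 + a2^2*d21*ni*t + c2*t^4 - 2*c2^2*n*t^2 + c2^3*n^2 + a2*c2*d21*ni*t^2 - a2*c2*n*t*ρ*ρi + a2*t^3*ρ*ρi + a2^2*c2*n*ρ*ρi - 2*a2^2*t^2*ρ*ρi + a2^3*t*ρ*ρi - c2*d21*ni*t^3 - 2*a2*c2*t^3*ρ*ρi + 2*a2*c2^2*n*t*ρ*ρi + a2^2*c2*t^2*ρ*ρi + c2*t^4*ρ*ρi - 2*c2^2*n*t^2*ρ*ρi + c2^3*n^2*ρ*ρi) * hρ + (d11 - a2*t - c2*n + t^2 - d21*ni*t) * hQ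
    · linear_combination (-d22*t - c2^2*d22*t - a2*c2*d22*ρ*ρi + a2*d12*t*ρ*ρi - a2^2*d12*ρ*ρi - a2*c2*d12*t*ρ*ρi + c2*d12*t^2*ρ*ρi + a2^2*t*ρ^2*ρi^2 - a2^3*ρ^2*ρi^2 + a2*c2*t^2*ρ^2*ρi^2 - a2*c2^2*n*ρ^2*ρi^2 - a2^2*c2*t*ρ^2*ρi^2) * hn + (-a2*n + a2*d12*t - a2^2*d12 + a2^2*t - a2^3 - a2*c2*d12*t + a2*c2*t^2 - a2*c2^2*n - a2^2*c2*t + c2*d12*t^2 - c2^2*d12*n + c2^2*d22*t - a2*d22*ni*t^2 + a2^2*d22*ni*t + a2^2*t*ρ*ρi - a2^3*ρ*ρi + a2*c2*d22*ni*t^2 + a2*c2*t^2*ρ*ρi - a2*c2^2*n*ρ*ρi - a2^2*c2*t*ρ*ρi - c2*d22*ni*t^3) * hρ + (a2 + d12 - d22*ni*t) * hQ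
  have k1 : IsConj (Xs t n ni hn) L :=
    cls_low1 t n ni di hn hd L _ _ _ _ _ _ _ _ hL
  have k2 : IsConj (Xs t n ni hn) (L⁻¹ * V * M * V⁻¹) :=
    cls_upp t n ni di hn hd _ _ _ _ _ c2i _ _ _ _ _ _ _ _ hU (by ring) (by linear_combination (1) * hQ) hc2
  exact Fact2.of_LU (V := V) k1 k2 (by group)

theorem fact_alt (t n ni di : F) (hn : n * ni = 1) (hd : (n - 1) * ((n + 1) ^ 2 - t ^ 2) * di = 1) (M : Sp4 F)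
    (ρ a2 c2 x13 x14 x23 x24 d11 d12 d21 d22 : F)
    (hρ : ρ ≠ 0) (hc2 : c2 ≠ 0)
    (hQ : a2 * (t - a2) - (n * c2 - t * (t - a2)) * c2 - n = 0)
    (hM : M.1 = m4 0 0 x13 x14 0 0 x23 x24 0 (-ρ) d11 d12 ρ 0 d21 d22) : Fact2 (Xs t n ni hn) M :=
  fact_alt_core t n ni di hn hd M ρ ρ⁻¹ a2 c2 c2⁻¹ _ _ _ _ _ _ _ _ (mul_inv_cancel₀ hρ) (mul_inv_cancel₀ hc2) hQ hM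

end Cfsg.Agent.Lib.Helper79.PSp4
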