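import Cfsg.Agent.Lib.Helper79.PSp4.Main

set_option autoImplicit false
set_option linter.unusedSectionVars false
set_option linter.unusedVariables false

open Matrix

namespace Cfsg.Agent.Lib.Helper79.PSp4

variable {F : Type*} [Field F]

theorem K_pow_form (t n : F) (m : ℕ) :
    ∃ a b : F, (!![0, -n; 1, t] : Matrix (Fin 2) (Fin 2) F) ^ m = !![a, -n * b; b, a + t * b] := by
  induction m with
  | zero =>
    refine ⟨1, 0, ?_⟩
    rw [pow_zero]
    ext i j
    fin_cases i <;> fin_cases j <;> simp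
  | succ m ih =>
    obtain ⟨a, b, h⟩ := ih
    refine ⟨-n * b, a + t * b, ?_⟩
    rw [pow_succ, h, Matrix.mul_fin_two]
    ext i j
    fin_cases i <;> fin_cases j <;> simp <;> ring

theorem K_pow_char (p : ℕ) [Fact p.Prime] [CharP F p] (t n : F)
    (hirr : ∀ s : F, s ^ 2 - t * s + n ≠ 0) (m : ℕ)
    (h : (!![0, -n; 1, t] : Matrix (Fin 2) (Fin 2) F) ^ (p * m) = 1) :
    (!![0, -n; 1, t] : Matrix (Fin 2) (Fin 2) F) ^ m = 1 := by
  obtain ⟨a, b, hab⟩ := K_pow_form t n m
  have h1 : ((!![0, -n; 1, t] : Matrix (Fin 2) (Fin 2) F) ^ m - 1) ^ p = 0 := by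
    rw [sub_pow_char_of_commute _ (Commute.one_right _), one_pow, ← pow_mul, mul_comm m p, h, sub_self]
  have h2 : ((!![0, -n; 1, t] : Matrix (Fin 2) (Fin 2) F) ^ m - 1).det = 0 := by
    have e := congrArg Matrix.det h1
    rw [Matrix.det_pow, Matrix.det_zero] at e
    exact (pow_eq_zero_iff (Fact.out : p.Prime).ne_zero).mp e
  rw [hab] at h2 ⊢
  have h3 : (a - 1) * (a + t * b - 1) + n * b ^ 2 = 0 := by
    have e : (!![a, -n * b; b, a + t * b] - 1 : Matrix (Fin 2) (Fin 2) F) =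
        !![a - 1, -n * b; b, a + t * b - 1] := by
      ext i j
      fin_cases i <;> fin_cases j <;> simp
    rw [e, Matrix.det_fin_two_of] at h2
    linear_combination h2
  by_cases hb : b = 0
  · subst hb
    have ha : a = 1 := by
      have e : (a - 1) * (a - 1) = 0 := by linear_combination h3
      have e2 := mul_self_eq_zero.mp e
      linear_combination e2
    subst ha
    ext i j
    fin_cases i <;> fin_cases j <;> simp
  · exfalso
    apply hirr ((1 - a) / b)
    field_simp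
    linear_combination h3

theorem Xm_eq (t n ni : F) : Xm t n ni =
    Matrix.fromBlocks (!![0, -n; 1, t] : Matrix (Fin 2) (Fin 2) F) 0 0 !![ni * t, -ni; 1, 0] := by
  unfold Xm m4
  congr 1 <;> (ext i j; fin_cases i <;> fin_cases j <;> rfl)

theorem Xm_pow (t n ni : F) (m : ℕ) : (Xm t n ni) ^ m =
    Matrix.fromBlocks ((!![0, -n; 1, t] : Matrix (Fin 2) (Fin 2) F) ^ m) 0 0
      ((!![ni * t, -ni; 1, 0] : Matrix (Fin 2) (Fin 2) F) ^ m) := by
  induction m with
  | zero => rw [pow_zero, pow_zero, pow_zero, Matrix.fromBlocks_one]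
  | succ m ih =>
    rw [pow_succ, ih, pow_succ, pow_succ]
    conv_lhs => rw [Xm_eq]
    rw [Matrix.fromBlocks_multiply]
    simp

theorem Xs_pow_char (p : ℕ) [Fact p.Prime] [CharP F p] (t n ni : F) (hn : n * ni = 1)
    (hirr : ∀ s : F, s ^ 2 - t * s + n ≠ 0) (m : ℕ) (h : (Xs t n ni hn) ^ (p * m) = 1) :
    (Xs t n ni hn) ^ m = 1 := by
  have h1 : ((Xs t n ni hn) ^ (p * m)).1 = 1 := by rw [h]; rfl
  rw [SubmonoidClass.coe_pow, Xs_val, Xm_pow, ← Matrix.fromBlocks_one] at h1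
  obtain ⟨hK, -, -, -⟩ := Matrix.fromBlocks_inj.mp h1
  have hKm := K_pow_char p t n hirr m hK
  have h2 : ((Xs t n ni hn) ^ m).1 = Matrix.fromBlocks 1 0 0
      ((!![ni * t, -ni; 1, 0] : Matrix (Fin 2) (Fin 2) F) ^ m) := by
    rw [SubmonoidClass.coe_pow, Xs_val, Xm_pow, hKm]
  obtain ⟨d11, d12, d21, d22, hD⟩ : ∃ d11 d12 d21 d22 : F,
      (!![ni * t, -ni; 1, 0] : Matrix (Fin 2) (Fin 2) F) ^ m = !![d11, d12; d21, d22] :=
    ⟨_, _, _, _, Matrix.eta_fin_two _⟩
  have h3 : ((Xs t n ni hn) ^ m).1 = m4 1 0 0 0 0 1 0 0 0 0 d11 d12 0 0 d21 d22 := by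
    rw [h2, hD]
    unfold m4
    congr 1 <;> (ext i j; fin_cases i <;> fin_cases j <;> simp)
  have hmem := ((Xs t n ni hn) ^ m).2
  rw [h3] at hmem
  obtain ⟨r13, r24, r12, r14, r23, r34⟩ := m4_rel hmem
  apply Subtype.ext
  rw [h3]
  show _ = (1 : Matrix (Fin 2 ⊕ Fin 2) (Fin 2 ⊕ Fin 2) F)
  rw [m4_one]
  exact m4_congr rfl rfl rfl rfl rfl rfl rfl rfl rfl rfl (by linear_combination (-1 : F) * r13)
    (by linear_combination (-1 : F) * r14) rfl rfl (by linear_combination (-1 : F) * r23)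
    (by linear_combination (-1 : F) * r24)

theorem Xs_order (p : ℕ) [Fact p.Prime] [CharP F p] [Finite F] (t n ni : F) (hn : n * ni = 1)
    (hirr : ∀ s : F, s ^ 2 - t * s + n ≠ 0) : ¬ p ∣ orderOf (Xs t n ni hn) := by
  rintro ⟨m, hm⟩
  have h1 : (Xs t n ni hn) ^ (p * m) = 1 := by rw [← hm]; exact pow_orderOf_eq_one _
  have h2 := Xs_pow_char p t n ni hn hirr m h1
  have h3 := orderOf_dvd_of_pow_eq_one h2
  rw [hm] at h3
  have hpos : 0 < orderOf (Xs t n ni hn) := orderOf_pos _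
  have hm0 : 0 < m := by
    rw [hm] at hpos
    exact Nat.pos_of_mul_pos_left hpos
  have h4 := Nat.le_of_dvd hm0 h3
  have hp2 := (Fact.out : p.Prime).two_le
  nlinarith

theorem exists_ne_ne [Fintype F] (h3 : 3 ≤ Fintype.card F) (a b : F) : ∃ x, x ≠ a ∧ x ≠ b := by
  classical
  by_contra h
  push Not at h
  have : Fintype.card F ≤ 2 := by
    calc Fintype.card F = (Finset.univ : Finset F).card := Finset.card_univ.symm
      _ ≤ ({a, b} : Finset F).card := Finset.card_le_card (fun x _ => by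
          by_cases hx : x = a
          · simp [hx]
          · simp [h x hx])
      _ ≤ 2 := Finset.card_le_two
  omega

theorem exists_tn (p : ℕ) [Fact p.Prime] [CharP F p] [Fintype F] (h3 : 3 ≤ Fintype.card F) :
    ∃ t n : F, t ≠ 0 ∧ n ≠ 1 ∧ ∀ s : F, s ^ 2 - t * s + n ≠ 0 := by
  by_cases h2 : (2 : F) = 0
  · have hninj : ¬ Function.Injective (fun s : F => s ^ 2 + s) := by
      intro h
      apply zero_ne_one (α := F)
      apply h
      show (0 : F) ^ 2 + 0 = 1 ^ 2 + 1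
      linear_combination (-1 : F) * h2
    have hnsurj : ¬ Function.Surjective (fun s : F => s ^ 2 + s) :=
      fun h => hninj (Finite.injective_iff_surjective.mpr h)
    obtain ⟨a0, ha0⟩ := not_forall.mp hnsurj
    have key : ∀ t : F, t ≠ 0 → ∀ s : F, s ^ 2 - t * s + a0 * t ^ 2 ≠ 0 := by
      intro t ht s hs
      apply ha0
      obtain ⟨ti, hti⟩ : ∃ ti, t * ti = 1 := ⟨t⁻¹, mul_inv_cancel₀ ht⟩
      refine ⟨s * ti, ?_⟩
      show (s * ti) ^ 2 + s * ti = a0
      linear_combination (ti ^ 2) * hs + (s * ti - a0) * h2 + (ti * s - a0 * (t * ti + 1)) * hti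
    by_cases h1 : a0 = 1
    · obtain ⟨t, ht0, ht1⟩ := exists_ne_ne h3 0 1
      refine ⟨t, a0 * t ^ 2, ht0, ?_, key t ht0⟩
      rw [h1, one_mul]
      intro h
      apply ht1
      have e : (t - 1) ^ 2 = 0 := by linear_combination h + (1 - t) * h2
      have e2 := (pow_eq_zero_iff (by norm_num : (2 : ℕ) ≠ 0)).mp e
      linear_combination e2
    · refine ⟨1, a0 * 1 ^ 2, one_ne_zero, ?_, key 1 one_ne_zero⟩
      rwa [one_pow, mul_one]
  · have hch : ringChar F ≠ 2 := by
      intro h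
      apply h2
      have e : ((ringChar F : ℕ) : F) = 0 := ringChar.Nat.cast_ringChar
      rw [h] at e
      exact_mod_cast e
    obtain ⟨d, hd⟩ := FiniteField.exists_nonsquare hch
    refine ⟨2, 1 - d, h2, ?_, ?_⟩
    · intro h
      apply hd
      have e : d = 0 := by linear_combination (-1 : F) * h
      rw [e]
      exact ⟨0, by ring⟩
    · intro s hs
      apply hd
      exact ⟨s - 1, by linear_combination (-1 : F) * hs⟩

theorem exists_params (p : ℕ) [Fact p.Prime] [CharP F p] [Fintype F] (h3 : 3 ≤ Fintype.card F) :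
    ∃ t n ni di a2 c2 : F, n * ni = 1 ∧ t ≠ 0 ∧ (n - 1) * ((n + 1) ^ 2 - t ^ 2) * di = 1 ∧ c2 ≠ 0 ∧
      a2 * (t - a2) - (n * c2 - t * (t - a2)) * c2 - n = 0 ∧ ∀ s : F, s ^ 2 - t * s + n ≠ 0 := by
  obtain ⟨t, n, ht, hn1, hirr⟩ := exists_tn p h3
  have hn0 : n ≠ 0 := by
    intro h
    apply hirr 0
    rw [h]; ring
  have hΔ : (n - 1) * ((n + 1) ^ 2 - t ^ 2) ≠ 0 := by
    have e1 : (1 : F) - t + n ≠ 0 := by
      intro h; apply hirr 1; linear_combination h
    have e2 : (1 : F) + t + n ≠ 0 := by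
      intro h; apply hirr (-1); linear_combination h
    have e3 : (n + 1) ^ 2 - t ^ 2 = (1 - t + n) * (1 + t + n) := by ring
    rw [e3]
    exact mul_ne_zero (sub_ne_zero.mpr hn1) (mul_ne_zero e1 e2)
  obtain ⟨a2, c2, hc2, hQ⟩ : ∃ a2 c2 : F, c2 ≠ 0 ∧
      a2 * (t - a2) - (n * c2 - t * (t - a2)) * c2 - n = 0 := by
    by_cases h2 : (2 : F) = 0
    · exact ⟨t, 1, one_ne_zero, by linear_combination (-n) * h2⟩
    · have hch : ringChar F ≠ 2 := by
        intro h
        apply h2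
        have e : ((ringChar F : ℕ) : F) = 0 := ringChar.Nat.cast_ringChar
        rw [h] at e
        exact_mod_cast e
      have hodd := FiniteField.odd_card_of_char_ne_two hch
      have hA : t ^ 2 - 4 * n ≠ 0 := by
        intro h
        apply hirr (t / 2)
        field_simp
        linear_combination (-1 : F) * h
      have hf : (Polynomial.C (-1 : F) * Polynomial.X ^ 2 + Polynomial.C 0 * Polynomial.X + Polynomial.C 0).degree = 2 :=
        Polynomial.degree_quadratic (neg_ne_zero.mpr one_ne_zero)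
      have hg : (Polynomial.C (t ^ 2 - 4 * n) * Polynomial.X ^ 2 + Polynomial.C (2 * t ^ 2) * Polynomial.X
          + Polynomial.C (t ^ 2 - 4 * n)).degree = 2 := Polynomial.degree_quadratic hA
      obtain ⟨U, c, hUc⟩ := FiniteField.exists_root_sum_quadratic hf hg hodd
      simp only [Polynomial.eval_add, Polynomial.eval_mul, Polynomial.eval_C, Polynomial.eval_X,
        Polynomial.eval_pow] at hUc
      have h4 : (4 : F) ≠ 0 := by
        have : (4 : F) = 2 * 2 := by norm_num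
        rw [this]
        exact mul_ne_zero h2 h2
      have hQ : (U + t * (1 - c)) / 2 * (t - (U + t * (1 - c)) / 2)
          - (n * c - t * (t - (U + t * (1 - c)) / 2)) * c - n = 0 := by
        field_simp
        linear_combination hUc
      refine ⟨(U + t * (1 - c)) / 2, c, ?_, hQ⟩
      intro hc
      rw [hc] at hQ
      apply hirr ((U + t * (1 - 0)) / 2)
      linear_combination (-1 : F) * hQ
  exact ⟨t, n, n⁻¹, ((n - 1) * ((n + 1) ^ 2 - t ^ 2))⁻¹, a2, c2, mul_inv_cancel₀ hn0, ht,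
    mul_inv_cancel₀ hΔ, hc2, hQ, hirr⟩

/-- The covering theorem for `PSp₄(F)`. -/
theorem psp4_final [Fintype F] (p : ℕ) [Fact p.Prime] [CharP F p] (h3 : 3 ≤ Fintype.card F) :
    ∃ x : Sp4 F ⧸ Subgroup.center (Sp4 F), ¬ p ∣ orderOf x ∧
      ∀ g : Sp4 F ⧸ Subgroup.center (Sp4 F), g ≠ 1 →
        ∃ u v : Sp4 F ⧸ Subgroup.center (Sp4 F), g = (u * x * u⁻¹) * (v * x * v⁻¹) := by
  obtain ⟨t, n, ni, di, a2, c2, hn, ht, hd, hc2, hQ, hirr⟩ := exists_params (F := F) p h3
  have hF := exists_ne_ne (F := F) h3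
  refine ⟨QuotientGroup.mk (Xs t n ni hn), ?_, ?_⟩
  · intro hdvd
    refine Xs_order p t n ni hn hirr (dvd_trans hdvd (orderOf_dvd_of_pow_eq_one ?_))
    rw [← QuotientGroup.mk_pow, pow_orderOf_eq_one]
    rfl
  · intro g hg
    obtain ⟨G, rfl⟩ := QuotientGroup.mk_surjective g
    have hGc : G ∉ Subgroup.center (Sp4 F) := fun h => hg ((QuotientGroup.eq_one_iff G).mpr h)
    rcases sp4_cover t n ni di hn ht hd hF a2 c2 hc2 hQ G hGc with
      ⟨Y1, Y2, h1, h2, hG⟩ | ⟨Y1, Y2, h1, h2, hG⟩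
    · obtain ⟨u, rfl⟩ := isConj_iff.mp h1
      obtain ⟨v, rfl⟩ := isConj_iff.mp h2
      refine ⟨QuotientGroup.mk u, QuotientGroup.mk v, ?_⟩
      rw [hG]
      rfl
    · obtain ⟨u, rfl⟩ := isConj_iff.mp h1
      obtain ⟨v, rfl⟩ := isConj_iff.mp h2
      refine ⟨QuotientGroup.mk u, QuotientGroup.mk v, ?_⟩
      have e : (QuotientGroup.mk G : Sp4 F ⧸ Subgroup.center (Sp4 F)) = QuotientGroup.mk (negOne * G) := by
        rw [QuotientGroup.mk_mul, (QuotientGroup.eq_one_iff _).mpr negOne_mem_center, one_mul]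
      rw [e, hG]
      rfl

end Cfsg.Agent.Lib.Helper79.PSp4
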