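import Cfsg.Agent.Lib.Helper79.PSp4.Fam

set_option autoImplicit false
set_option linter.unusedSectionVars false
set_option linter.unusedVariables false
set_option maxHeartbeats 1000000

open Matrix

namespace Cfsg.Agent.Lib.Helper79.PSp4

variable {F : Type*} [Field F]

theorem gen_vec (t n ni di : F) (hn : n * ni = 1) (ht : t ≠ 0)
    (hd : (n - 1) * ((n + 1) ^ 2 - t ^ 2) * di = 1)
    (hF : ∀ a b : F, ∃ x, x ≠ a ∧ x ≠ b) (G : Sp4 F) (v w : Fin 2 ⊕ Fin 2 → F)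
    (h1 : om v w = 0) (h2 : om w (G.1 *ᵥ v) = 0) (h3 : om v (G.1 *ᵥ v) ≠ 0)
    (h4 : om w (G.1 *ᵥ w) ≠ 0) : Fact2 (Xs t n ni hn) G := by
  have f5 : om (G.1 *ᵥ v) (G.1 *ᵥ w) = 0 := by rw [om_mulVec G.2, h1]
  obtain ⟨gv, hgv⟩ : ∃ gv, gv = G.1 *ᵥ v := ⟨_, rfl⟩
  obtain ⟨gw, hgw⟩ : ∃ gw, gw = G.1 *ᵥ w := ⟨_, rfl⟩
  rw [← hgv] at h2 h3 f5
  rw [← hgw] at h4 f5
  obtain ⟨qv, hqv⟩ : ∃ qv, qv = om v gv := ⟨_, rfl⟩
  obtain ⟨qw, hqw⟩ : ∃ qw, qw = om w gw := ⟨_, rfl⟩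
  obtain ⟨ρ, hρ⟩ : ∃ ρ, ρ = om v gw := ⟨_, rfl⟩
  rw [← hqv] at h3
  rw [← hqw] at h4
  obtain ⟨a, ha⟩ : ∃ a, a * qv = -1 := ⟨-qv⁻¹, by field_simp⟩
  obtain ⟨b, hb⟩ : ∃ b, b * qw = -1 := ⟨-qw⁻¹, by field_simp⟩
  have c13 : om v (a • gv) = -1 := by rw [om_smul_right, ← hqv]; exact ha
  have c24 : om w (b • (gw + ρ • (a • gv))) = -1 := by
    rw [om_smul_right, om_add_right, om_smul_right, om_smul_right, ← hqw, h2]
    linear_combination hb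
  have c14 : om v (b • (gw + ρ • (a • gv))) = 0 := by
    rw [om_smul_right, om_add_right, om_smul_right, om_smul_right, ← hqv, ← hρ]
    linear_combination (b * ρ) * ha
  have c23 : om w (a • gv) = 0 := by rw [om_smul_right, h2, mul_zero]
  have c34 : om (a • gv) (b • (gw + ρ • (a • gv))) = 0 := by
    rw [om_smul_left, om_smul_right, om_add_right, om_smul_right, om_smul_right, f5, om_self]
    ring
  obtain ⟨h, hh⟩ : ∃ h : Sp4 F, h.1 = cm v w (a • gv) (b • (gw + ρ • (a • gv))) :=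
    ⟨⟨_, cm_mem c13 c24 h1 c14 c23 c34⟩, rfl⟩
  have key : ∀ z z' : Fin 2 ⊕ Fin 2 → F, G.1 *ᵥ (h.1 *ᵥ z) = h.1 *ᵥ z' →
      (h⁻¹ * G * h).1 *ᵥ z = z' := by
    intro z z' hz
    rw [coe_mul', coe_mul', ← Matrix.mulVec_mulVec, ← Matrix.mulVec_mulVec, hz, Matrix.mulVec_mulVec,
      inv_mul_coe, Matrix.one_mulVec]
  have col1 : (h⁻¹ * G * h).1 *ᵥ v4 1 0 0 0 = v4 0 0 (-qv) 0 := by
    apply key
    rw [hh, cm_mulVec, cm_mulVec]
    simp only [one_smul, zero_smul, add_zero, zero_add]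
    rw [← hgv, smul_smul]
    have : -qv * a = 1 := by linear_combination (-1 : F) * ha
    rw [this, one_smul]
  have col2 : (h⁻¹ * G * h).1 *ᵥ v4 0 1 0 0 = v4 0 0 (-ρ) (-qw) := by
    apply key
    rw [hh, cm_mulVec, cm_mulVec]
    simp only [one_smul, zero_smul, add_zero, zero_add]
    rw [← hgw]
    ext i
    simp only [Pi.add_apply, Pi.smul_apply, smul_eq_mul]
    linear_combination (gw i + ρ * a * gv i) * hb
  obtain ⟨e11, e21, e31, e41⟩ := col1_of col1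
  obtain ⟨e12, e22, e32, e42⟩ := col2_of col2
  have hN := m4_eta (h⁻¹ * G * h).1
  rw [e11, e21, e31, e41, e12, e22, e32, e42] at hN
  have := fact_gen t n ni di hn ht hd hF (h⁻¹ * G * h) _ _ _ _ _ _ _ _ _ _ _
    (neg_ne_zero.mpr h3) (neg_ne_zero.mpr h4) hN
  exact Fact2.of_conj h this

theorem alt_vec (t n ni di : F) (hn : n * ni = 1)
    (hd : (n - 1) * ((n + 1) ^ 2 - t ^ 2) * di = 1) (G : Sp4 F) (v w : Fin 2 ⊕ Fin 2 → F)
    (a2 c2 : F) (hc2 : c2 ≠ 0) (hQ : a2 * (t - a2) - (n * c2 - t * (t - a2)) * c2 - n = 0)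
    (h1 : om v w = 0) (h2 : om v (G.1 *ᵥ v) = 0) (h3 : om w (G.1 *ᵥ w) = 0)
    (h4 : om w (G.1 *ᵥ v) = -om v (G.1 *ᵥ w)) (h5 : om v (G.1 *ᵥ w) ≠ 0) :
    Fact2 (Xs t n ni hn) G := by
  have f5 : om (G.1 *ᵥ v) (G.1 *ᵥ w) = 0 := by rw [om_mulVec G.2, h1]
  obtain ⟨gv, hgv⟩ : ∃ gv, gv = G.1 *ᵥ v := ⟨_, rfl⟩
  obtain ⟨gw, hgw⟩ : ∃ gw, gw = G.1 *ᵥ w := ⟨_, rfl⟩
  rw [← hgv] at h2 h4 f5
  rw [← hgw] at h3 h4 h5 f5
  obtain ⟨ρ, hρ⟩ : ∃ ρ, ρ = om v gw := ⟨_, rfl⟩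
  rw [← hρ] at h4 h5
  obtain ⟨s, hs⟩ : ∃ s, s * ρ = 1 := ⟨ρ⁻¹, inv_mul_cancel₀ h5⟩
  have c13 : om v ((-s) • gw) = -1 := by
    rw [om_smul_right, ← hρ]; linear_combination (-1 : F) * hs
  have c24 : om w (s • gv) = -1 := by
    rw [om_smul_right, h4]; linear_combination (-1 : F) * hs
  have c14 : om v (s • gv) = 0 := by rw [om_smul_right, h2, mul_zero]
  have c23 : om w ((-s) • gw) = 0 := by rw [om_smul_right, h3, mul_zero]
  have c34 : om ((-s) • gw) (s • gv) = 0 := by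
    rw [om_smul_left, om_smul_right, om_swap gw gv, f5]
    ring
  obtain ⟨h, hh⟩ : ∃ h : Sp4 F, h.1 = cm v w ((-s) • gw) (s • gv) :=
    ⟨⟨_, cm_mem c13 c24 h1 c14 c23 c34⟩, rfl⟩
  have key : ∀ z z' : Fin 2 ⊕ Fin 2 → F, G.1 *ᵥ (h.1 *ᵥ z) = h.1 *ᵥ z' →
      (h⁻¹ * G * h).1 *ᵥ z = z' := by
    intro z z' hz
    rw [coe_mul', coe_mul', ← Matrix.mulVec_mulVec, ← Matrix.mulVec_mulVec, hz, Matrix.mulVec_mulVec,
      inv_mul_coe, Matrix.one_mulVec]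
  have col1 : (h⁻¹ * G * h).1 *ᵥ v4 1 0 0 0 = v4 0 0 0 ρ := by
    apply key
    rw [hh, cm_mulVec, cm_mulVec]
    simp only [one_smul, zero_smul, add_zero, zero_add]
    rw [← hgv, smul_smul]
    have : ρ * s = 1 := by linear_combination hs
    rw [this, one_smul]
  have col2 : (h⁻¹ * G * h).1 *ᵥ v4 0 1 0 0 = v4 0 0 (-ρ) 0 := by
    apply key
    rw [hh, cm_mulVec, cm_mulVec]
    simp only [one_smul, zero_smul, add_zero, zero_add]
    rw [← hgw, smul_smul]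
    have : -ρ * -s = 1 := by linear_combination hs
    rw [this, one_smul]
  obtain ⟨e11, e21, e31, e41⟩ := col1_of col1
  obtain ⟨e12, e22, e32, e42⟩ := col2_of col2
  have hN := m4_eta (h⁻¹ * G * h).1
  rw [e11, e21, e31, e41, e12, e22, e32, e42] at hN
  have := fact_alt t n ni di hn hd (h⁻¹ * G * h) ρ a2 c2 _ _ _ _ _ _ _ _ h5 hc2 hQ hN
  exact Fact2.of_conj h this

theorem T1a (a1 a2 a3 a4 : F) (h : a1 ≠ 0) : ∃ g : Sp4 F, g.1 *ᵥ v4 1 0 0 0 = v4 a1 a2 a3 a4 := by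
  obtain ⟨a1i, ha⟩ : ∃ a1i, a1 * a1i = 1 := ⟨a1⁻¹, mul_inv_cancel₀ h⟩
  have hm : m4 a1 0 0 0 a2 1 0 0 a3 (a1i*a4) a1i (-a1i*a2) a4 0 0 1 ∈ Matrix.symplecticGroup (Fin 2) F := by
    refine m4_mem_of ?_ ?_ ?_ ?_ ?_ ?_
    · linear_combination (-1) * ha
    · ring
    · linear_combination (-a4) * ha
    · linear_combination (a2) * ha
    · ring
    · ring
  refine ⟨⟨_, hm⟩, ?_⟩
  show m4 a1 0 0 0 a2 1 0 0 a3 (a1i*a4) a1i (-a1i*a2) a4 0 0 1 *ᵥ v4 1 0 0 0 = _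
  rw [m4_mulVec]
  refine v4_congr ?_ ?_ ?_ ?_ <;> ring

theorem T1 (a : Fin 2 ⊕ Fin 2 → F) (ha : a ≠ 0) : ∃ g : Sp4 F, g.1 *ᵥ v4 1 0 0 0 = a := by
  have key : ∀ τ : Sp4 F, (τ.1 *ᵥ a) (.inl 0) ≠ 0 → ∃ g : Sp4 F, g.1 *ᵥ v4 1 0 0 0 = a := by
    intro τ hτ
    obtain ⟨g, hg⟩ := T1a _ ((τ.1 *ᵥ a) (.inl 1)) ((τ.1 *ᵥ a) (.inr 0)) ((τ.1 *ᵥ a) (.inr 1)) hτ
    rw [← v4_eta] at hg
    refine ⟨τ⁻¹ * g, ?_⟩
    rw [coe_mul', ← Matrix.mulVec_mulVec, hg, Matrix.mulVec_mulVec, inv_mul_coe, Matrix.one_mulVec]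
  obtain ⟨a1, a2, a3, a4, rfl⟩ : ∃ a1 a2 a3 a4, a = v4 a1 a2 a3 a4 := ⟨_, _, _, _, v4_eta a⟩
  by_cases h1 : a1 = 0
  swap
  · exact T1a a1 a2 a3 a4 h1
  by_cases h2 : a2 = 0
  swap
  · have hm : m4 (0 : F) 1 0 0 1 0 0 0 0 0 0 1 0 0 1 0 ∈ Matrix.symplecticGroup (Fin 2) F := by
      refine m4_mem_of ?_ ?_ ?_ ?_ ?_ ?_ <;> ring
    refine key ⟨_, hm⟩ ?_
    show (m4 (0 : F) 1 0 0 1 0 0 0 0 0 0 1 0 0 1 0 *ᵥ v4 a1 a2 a3 a4) (.inl 0) ≠ 0
    rw [m4_mulVec]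
    show 0 * a1 + 1 * a2 + 0 * a3 + 0 * a4 ≠ 0
    intro h
    apply h2
    linear_combination h
  by_cases h3 : a3 = 0
  swap
  · have hm : m4 (0 : F) 0 1 0 0 1 0 0 (-1) 0 0 0 0 0 0 1 ∈ Matrix.symplecticGroup (Fin 2) F := by
      refine m4_mem_of ?_ ?_ ?_ ?_ ?_ ?_ <;> ring
    refine key ⟨_, hm⟩ ?_
    show (m4 (0 : F) 0 1 0 0 1 0 0 (-1) 0 0 0 0 0 0 1 *ᵥ v4 a1 a2 a3 a4) (.inl 0) ≠ 0
    rw [m4_mulVec]
    show 0 * a1 + 0 * a2 + 1 * a3 + 0 * a4 ≠ 0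
    intro h
    apply h3
    linear_combination h
  by_cases h4 : a4 = 0
  swap
  · have hm : m4 (0 : F) 0 0 1 1 0 0 0 0 (-1) 0 0 0 0 1 0 ∈ Matrix.symplecticGroup (Fin 2) F := by
      refine m4_mem_of ?_ ?_ ?_ ?_ ?_ ?_ <;> ring
    refine key ⟨_, hm⟩ ?_
    show (m4 (0 : F) 0 0 1 1 0 0 0 0 (-1) 0 0 0 0 1 0 *ᵥ v4 a1 a2 a3 a4) (.inl 0) ≠ 0
    rw [m4_mulVec]
    show 0 * a1 + 0 * a2 + 0 * a3 + 1 * a4 ≠ 0
    intro h
    apply h4
    linear_combination h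
  exfalso
  apply ha
  subst h1 h2 h3 h4
  ext i
  rcases i with i | i <;> fin_cases i <;> rfl

theorem witt (v u : Fin 2 ⊕ Fin 2 → F) (h : om v u = -1) :
    ∃ g : Sp4 F, g.1 *ᵥ v4 1 0 0 0 = v ∧ g.1 *ᵥ v4 0 0 1 0 = u := by
  have hv : v ≠ 0 := by
    rintro rfl
    have h0 : om (0 : Fin 2 ⊕ Fin 2 → F) u = 0 := by simp [om]
    rw [h0] at h
    exact (neg_ne_zero.mpr (one_ne_zero (α := F))) h.symm
  obtain ⟨g1, hg1⟩ := T1 v hv
  obtain ⟨u1, u2, u3, u4, hu⟩ : ∃ u1 u2 u3 u4, (g1⁻¹).1 *ᵥ u = v4 u1 u2 u3 u4 :=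
    ⟨_, _, _, _, v4_eta _⟩
  have hu' : g1.1 *ᵥ v4 u1 u2 u3 u4 = u := by
    rw [← hu, Matrix.mulVec_mulVec, mul_inv_coe, Matrix.one_mulVec]
  have h3 : u3 = 1 := by
    have e := om_mulVec g1.2 (v4 1 0 0 0) (v4 u1 u2 u3 u4)
    rw [hg1, hu', h, om_v4] at e
    linear_combination e
  subst h3
  have hm : m4 1 (-u4) u1 u2 0 1 u2 0 0 0 1 0 0 0 u4 1 ∈ Matrix.symplecticGroup (Fin 2) F := by
    refine m4_mem_of ?_ ?_ ?_ ?_ ?_ ?_ <;> ring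
  refine ⟨g1 * ⟨_, hm⟩, ?_, ?_⟩
  · rw [coe_mul', ← Matrix.mulVec_mulVec]
    show g1.1 *ᵥ (m4 1 (-u4) u1 u2 0 1 u2 0 0 0 1 0 0 0 u4 1 *ᵥ v4 1 0 0 0) = v
    rw [m4_mulVec]
    have e : v4 (1 * 1 + -u4 * 0 + u1 * 0 + u2 * 0) (0 * 1 + 1 * 0 + u2 * 0 + 0 * 0)
        (0 * 1 + 0 * 0 + 1 * 0 + 0 * 0) (0 * 1 + 0 * 0 + u4 * 0 + 1 * 0) = v4 (1 : F) 0 0 0 :=
      v4_congr (by ring) (by ring) (by ring) (by ring)
    rw [e, hg1]
  · rw [coe_mul', ← Matrix.mulVec_mulVec]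
    show g1.1 *ᵥ (m4 1 (-u4) u1 u2 0 1 u2 0 0 0 1 0 0 0 u4 1 *ᵥ v4 0 0 1 0) = u
    rw [m4_mulVec]
    have e : v4 (1 * 0 + -u4 * 0 + u1 * 1 + u2 * 0) (0 * 0 + 1 * 0 + u2 * 1 + 0 * 0)
        (0 * 0 + 0 * 0 + 1 * 1 + 0 * 0) (0 * 0 + 0 * 0 + u4 * 1 + 1 * 0) = v4 u1 u2 1 u4 :=
      v4_congr (by ring) (by ring) (by ring) (by ring)
    rw [e, hu']

theorem fact_fam_a (t n ni di : F) (hn : n * ni = 1) (hd : (n - 1) * ((n + 1) ^ 2 - t ^ 2) * di = 1)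
    (G : Sp4 F) (c ci z2 z3 z4 : F) (hc : c * ci = 1) (h2 : z2 = 0) (h4 : z4 = 0) (h3 : z3 = 2)
    (hG : G.1 = m4 0 0 (-ci) 0 0 1 z2 0 c (-c*z4) z3 (c*z2) 0 0 z4 1) : Fact2 (Xs t n ni hn) G := by
  subst h2 h4 h3
  have hm : m4 1 0 0 0 0 1 0 0 (-c) 0 1 0 0 0 0 1 ∈ Matrix.symplecticGroup (Fin 2) F := by
    refine m4_mem_of ?_ ?_ ?_ ?_ ?_ ?_
    · ring
    · ring
    · ring
    · ring
    · ring
    · ring
  obtain ⟨u, hu⟩ : ∃ u : Sp4 F, u.1 = m4 1 0 0 0 0 1 0 0 (-c) 0 1 0 0 0 0 1 := ⟨⟨_, hm⟩, rfl⟩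
  have hN : (u⁻¹ * G * u).1 = m4 1 0 (-ci) 0 0 1 0 0 0 0 1 0 0 0 0 1 := by
    rw [coe_mul', coe_mul', SymplecticGroup.coe_inv, hu, hG, m4_sinv, m4_mul, m4_mul]
    refine m4_congr ?_ ?_ ?_ ?_ ?_ ?_ ?_ ?_ ?_ ?_ ?_ ?_ ?_ ?_ ?_ ?_
    · linear_combination (1) * hc
    · ring
    · ring
    · ring
    · ring
    · ring
    · ring
    · ring
    · linear_combination (c) * hc
    · ring
    · linear_combination (-1) * hc
    · ring
    · ring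
    · ring
    · ring
    · ring
  exact Fact2.of_conj u (fact_U t n ni di hn hd _ _ _ _ _ _ _ _ _ hN)

theorem fact_fam_b (t n ni di : F) (hn : n * ni = 1) (ht : t ≠ 0) (hd : (n - 1) * ((n + 1) ^ 2 - t ^ 2) * di = 1)
    (hF : ∀ a b : F, ∃ x, x ≠ a ∧ x ≠ b)
    (G : Sp4 F) (c ci z2 z3 z4 : F) (hc : c * ci = 1) (h2 : z2 = 0) (h4 : z4 = 0) (h3 : z3 ≠ 2)
    (hG : G.1 = m4 0 0 (-ci) 0 0 1 z2 0 c (-c*z4) z3 (c*z2) 0 0 z4 1) : Fact2 (Xs t n ni hn) G := by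
  subst h2 h4
  have hc0 : c ≠ 0 := left_ne_zero_of_mul_eq_one hc
  refine gen_vec t n ni di hn ht hd hF G (v4 1 1 0 0) (v4 (-1) 0 c (-c)) ?_ ?_ ?_ ?_
  · rw [om_v4]
    ring
  · rw [hG, m4_mulVec, om_v4]
    ring
  · rw [hG, m4_mulVec, om_v4]
    intro h
    apply hc0
    linear_combination (-1 : F) * h
  · rw [hG, m4_mulVec, om_v4]
    intro h
    apply mul_ne_zero hc0 (sub_ne_zero.mpr h3)
    linear_combination h - (-c) * hc

theorem fact_fam_c (t n ni di : F) (hn : n * ni = 1) (ht : t ≠ 0) (hd : (n - 1) * ((n + 1) ^ 2 - t ^ 2) * di = 1)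
    (hF : ∀ a b : F, ∃ x, x ≠ a ∧ x ≠ b) (G : Sp4 F) (c ci z2 z3 z4 a b κ κi τ : F)
    (hc : c * ci = 1) (hab : b * z2 - a * z4 = 1) (hκ : κ * κi = 1) (hτ : τ ≠ 0)
    (hFk : τ * (-κ ^ 2 + z3 * κ - 1) - c * κ * (κ + 1) ≠ 0)
    (hG : G.1 = m4 0 0 (-ci) 0 0 1 z2 0 c (-c*z4) z3 (c*z2) 0 0 z4 1) : Fact2 (Xs t n ni hn) G := by
  have hc0 : c ≠ 0 := left_ne_zero_of_mul_eq_one hc
  have hci0 : ci ≠ 0 := right_ne_zero_of_mul_eq_one hc
  have hκ0 : κ ≠ 0 := left_ne_zero_of_mul_eq_one hκ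
  have hκi0 : κi ≠ 0 := right_ne_zero_of_mul_eq_one hκ
  refine gen_vec t n ni di hn ht hd hF G (v4 1 (-a + a*κ + z2*τ) 0 (-b + b*κ + z4*τ)) (v4 (ci*κi*τ) a (-τ) b) ?_ ?_ ?_ ?_
  · rw [om_v4]
    linear_combination (-τ) * hab
  · rw [hG, m4_mulVec, om_v4]
    linear_combination (-κi*τ - a*z4*κi*τ + b*z2*κi*τ + a*z4*κ*κi*τ - b*z2*κ*κi*τ) * hc + (a*z4*τ - b*z2*τ) * hκ + (κi*τ) * hab
  · rw [hG, m4_mulVec, om_v4]
    intro h
    apply mul_ne_zero hc0 hκ0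
    linear_combination (-1 : F) * h + (c - c*κ) * hab
  · rw [hG, m4_mulVec, om_v4]
    intro h
    apply mul_ne_zero (mul_ne_zero (mul_ne_zero hτ hci0) (pow_ne_zero 2 hκi0)) hFk
    linear_combination h - (a*z4*κi*τ - b*z2*κi*τ + κ*κi^2*τ - ci*κi^2*τ^2 + κ^2*κi^2*τ) * hc - (τ + κi*τ + ci*τ^2 + κ*κi*τ - ci*z3*κi*τ^2 + ci*κ*κi*τ^2) * hκ - (-τ - κi*τ) * hab

theorem fact_fam (t n ni di : F) (hn : n * ni = 1) (ht : t ≠ 0)
    (hd : (n - 1) * ((n + 1) ^ 2 - t ^ 2) * di = 1)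
    (hF : ∀ a b : F, ∃ x, x ≠ a ∧ x ≠ b) (G : Sp4 F) (c ci z2 z3 z4 : F) (hc : c * ci = 1)
    (hG : G.1 = m4 0 0 (-ci) 0 0 1 z2 0 c (-c*z4) z3 (c*z2) 0 0 z4 1) : Fact2 (Xs t n ni hn) G := by
  have hc0 : c ≠ 0 := left_ne_zero_of_mul_eq_one hc
  by_cases h24 : z2 = 0 ∧ z4 = 0
  · obtain ⟨h2, h4⟩ := h24
    by_cases h3 : z3 = 2
    · exact fact_fam_a t n ni di hn hd G c ci z2 z3 z4 hc h2 h4 h3 hG
    · exact fact_fam_b t n ni di hn ht hd hF G c ci z2 z3 z4 hc h2 h4 h3 hG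
  · obtain ⟨a, b, hab⟩ : ∃ a b : F, b * z2 - a * z4 = 1 := by
      by_cases h2 : z2 = 0
      · have h4 : z4 ≠ 0 := fun h => h24 ⟨h2, h⟩
        refine ⟨-z4⁻¹, 0, ?_⟩
        rw [zero_mul, zero_sub, neg_mul, neg_neg, inv_mul_cancel₀ h4]
      · refine ⟨0, z2⁻¹, ?_⟩
        rw [zero_mul, sub_zero, inv_mul_cancel₀ h2]
    by_cases hch : z3 = 2 ∧ (2 : F) = 0
    · obtain ⟨hz3, h20⟩ := hch
      obtain ⟨κ, hκ0, hκ1⟩ := hF 0 1
      refine fact_fam_c t n ni di hn ht hd hF G c ci z2 z3 z4 a b κ κ⁻¹ c hc hab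
        (mul_inv_cancel₀ hκ0) hc0 ?_ hG
      intro hE
      apply mul_ne_zero hc0 (sub_ne_zero.mpr hκ1)
      linear_combination hE + (c * κ ^ 2) * h20 - (c * κ) * hz3
    · obtain ⟨τ, hτ0, hτF⟩ : ∃ τ : F, τ ≠ 0 ∧ τ * (z3 - 2) - 2 * c ≠ 0 := by
        by_cases hz3 : z3 = 2
        · have h20 : (2 : F) ≠ 0 := fun h => hch ⟨hz3, h⟩
          refine ⟨1, one_ne_zero, ?_⟩
          rw [hz3]
          intro h
          apply mul_ne_zero h20 hc0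
          linear_combination (-1 : F) * h
        · obtain ⟨τ, h0, h1⟩ := hF 0 (2 * c * (z3 - 2)⁻¹)
          refine ⟨τ, h0, ?_⟩
          intro h
          apply h1
          have hz : z3 - 2 ≠ 0 := sub_ne_zero.mpr hz3
          field_simp
          linear_combination h
      refine fact_fam_c t n ni di hn ht hd hF G c ci z2 z3 z4 a b 1 1 τ hc hab (by ring) hτ0 ?_ hG
      intro hE
      apply hτF
      linear_combination hE

theorem fact_col (t n ni di : F) (hn : n * ni = 1) (ht : t ≠ 0)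
    (hd : (n - 1) * ((n + 1) ^ 2 - t ^ 2) * di = 1)
    (hF : ∀ a b : F, ∃ x, x ≠ a ∧ x ≠ b) (G : Sp4 F) (c : F) (hc : c ≠ 0)
    (hcol : G.1 *ᵥ v4 1 0 0 0 = v4 0 0 c 0) :
    Fact2 (Xs t n ni hn) G ∨ Fact2 (Xs t n ni hn) (negOne * G) := by
  obtain ⟨e11, e21, e31, e41⟩ := col1_of hcol
  obtain ⟨g12, g13, g14, g22, g23, g24, g32, g33, g34, g42, g43, g44, hG⟩ :
      ∃ g12 g13 g14 g22 g23 g24 g32 g33 g34 g42 g43 g44 : F,
        G.1 = m4 0 g12 g13 g14 0 g22 g23 g24 c g32 g33 g34 0 g42 g43 g44 := by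
    have := m4_eta G.1
    rw [e11, e21, e31, e41] at this
    exact ⟨_, _, _, _, _, _, _, _, _, _, _, _, this⟩
  have hmem := G.2
  rw [hG] at hmem
  obtain ⟨r13, r24, r12, r14, r23, r34⟩ := m4_rel hmem
  by_cases h42 : g42 = 0
  swap
  · left
    refine gen_vec t n ni di hn ht hd hF G (v4 1 0 0 0) (v4 0 1 0 0) ?_ ?_ ?_ ?_
    · rw [om_v4]; ring
    · rw [hG, m4_mulVec, om_v4]; ring
    · rw [hG, m4_mulVec, om_v4]
      intro h
      apply hc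
      linear_combination (-1 : F) * h
    · rw [hG, m4_mulVec, om_v4]
      intro h
      apply h42
      linear_combination (-1 : F) * h
  by_cases h24 : g24 = 0
  swap
  · left
    refine gen_vec t n ni di hn ht hd hF G (v4 1 0 0 0) (v4 0 0 0 1) ?_ ?_ ?_ ?_
    · rw [om_v4]; ring
    · rw [hG, m4_mulVec, om_v4]; ring
    · rw [hG, m4_mulVec, om_v4]
      intro h
      apply hc
      linear_combination (-1 : F) * h
    · rw [hG, m4_mulVec, om_v4]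
      intro h
      apply h24
      linear_combination h
  by_cases h22 : g22 = g44
  swap
  · left
    refine gen_vec t n ni di hn ht hd hF G (v4 1 0 0 0) (v4 0 1 0 1) ?_ ?_ ?_ ?_
    · rw [om_v4]; ring
    · rw [hG, m4_mulVec, om_v4]; ring
    · rw [hG, m4_mulVec, om_v4]
      intro h
      apply hc
      linear_combination (-1 : F) * h
    · rw [hG, m4_mulVec, om_v4]
      intro h
      apply h22
      rw [← sub_eq_zero]
      linear_combination h - h24 + h42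
  obtain ⟨ci, hci⟩ : ∃ ci, c * ci = 1 := ⟨c⁻¹, mul_inv_cancel₀ hc⟩
  have q12 : g12 = 0 := mul_left_cancel₀ hc (by linear_combination r12)
  have q14 : g14 = 0 := mul_left_cancel₀ hc (by linear_combination r14)
  have q13 : g13 = -ci := by linear_combination ci * r13 - g13 * hci
  have ql : (g44 - 1) * (g44 + 1) = 0 := by
    linear_combination (-1 : F) * r24 - g34 * q12 + g32 * q14 + g42 * h24 - g44 * h22
  have q32' : -g44 * g43 - g32 * ci = 0 := by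
    linear_combination r23 + g33 * q12 + g43 * h22 - g32 * q13 - g23 * h42
  have q34' : ci * g34 - g44 * g23 = 0 := by
    linear_combination r34 + g34 * q13 - g33 * q14 - g43 * h24
  have q32 : g32 = -c * g44 * g43 := by linear_combination (-g32) * hci - c * q32'
  have q34 : g34 = c * g44 * g23 := by linear_combination c * q34' - g34 * hci
  rcases mul_eq_zero.mp ql with hl | hl
  · have hl1 : g44 = 1 := by linear_combination hl
    left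
    refine fact_fam t n ni di hn ht hd hF G c ci g23 g33 g43 hci ?_
    rw [hG]
    refine m4_congr rfl q12 q13 q14 rfl ?_ rfl h24 rfl ?_ rfl ?_ rfl h42 rfl hl1
    · rw [h22, hl1]
    · rw [q32, hl1]; ring
    · rw [q34, hl1]; ring
  · have hl1 : g44 = -1 := by linear_combination hl
    right
    refine fact_fam t n ni di hn ht hd hF (negOne * G) (-c) (-ci) (-g23) (-g33) (-g43)
      (by linear_combination hci) ?_
    rw [negOne_mul_coe, hG, m4_neg]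
    refine m4_congr ?_ ?_ ?_ ?_ ?_ ?_ rfl ?_ rfl ?_ rfl ?_ ?_ ?_ rfl ?_
    · ring
    · rw [q12]; ring
    · rw [q13]
    · rw [q14]; ring
    · ring
    · rw [h22, hl1]; ring
    · rw [h24]; ring
    · rw [q32, hl1]; ring
    · rw [q34, hl1]; ring
    · ring
    · rw [h42]; ring
    · rw [hl1]; ring

theorem sp4_cover (t n ni di : F) (hn : n * ni = 1) (ht : t ≠ 0)
    (hd : (n - 1) * ((n + 1) ^ 2 - t ^ 2) * di = 1)
    (hF : ∀ a b : F, ∃ x, x ≠ a ∧ x ≠ b)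
    (a2 c2 : F) (hc2 : c2 ≠ 0) (hQ : a2 * (t - a2) - (n * c2 - t * (t - a2)) * c2 - n = 0)
    (G : Sp4 F) (hG : G ∉ Subgroup.center (Sp4 F)) :
    Fact2 (Xs t n ni hn) G ∨ Fact2 (Xs t n ni hn) (negOne * G) := by
  by_cases hq : ∀ z, om z (G.1 *ᵥ z) = 0
  · left
    obtain ⟨v, w, h1, h2⟩ : ∃ v w, om v w = 0 ∧ om v (G.1 *ᵥ w) ≠ 0 := by
      by_contra hcon
      push Not at hcon
      apply hG
      obtain ⟨g11, g12, g13, g14, g21, g22, g23, g24, g31, g32, g33, g34, g41, g42, g43, g44, hGm⟩ :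
          ∃ g11 g12 g13 g14 g21 g22 g23 g24 g31 g32 g33 g34 g41 g42 g43 g44 : F,
            G.1 = m4 g11 g12 g13 g14 g21 g22 g23 g24 g31 g32 g33 g34 g41 g42 g43 g44 :=
        ⟨_, _, _, _, _, _, _, _, _, _, _, _, _, _, _, _, m4_eta G.1⟩
      have T : ∀ x1 x2 x3 x4 y1 y2 y3 y4 : F, -x1*y3 - x2*y4 + x3*y1 + x4*y2 = 0 →
          -x1*(g31*y1 + g32*y2 + g33*y3 + g34*y4) - x2*(g41*y1 + g42*y2 + g43*y3 + g44*y4)
            + x3*(g11*y1 + g12*y2 + g13*y3 + g14*y4) + x4*(g21*y1 + g22*y2 + g23*y3 + g24*y4) = 0 := by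
        intro x1 x2 x3 x4 y1 y2 y3 y4 h
        have := hcon (v4 x1 x2 x3 x4) (v4 y1 y2 y3 y4) (by rw [om_v4]; exact h)
        rw [hGm, m4_mulVec, om_v4] at this
        exact this
      have e31 : g31 = 0 := by have := T 1 0 0 0 1 0 0 0 (by ring); linear_combination (-1 : F) * this
      have e32 : g32 = 0 := by have := T 1 0 0 0 0 1 0 0 (by ring); linear_combination (-1 : F) * this
      have e34 : g34 = 0 := by have := T 1 0 0 0 0 0 0 1 (by ring); linear_combination (-1 : F) * this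
      have e41 : g41 = 0 := by have := T 0 1 0 0 1 0 0 0 (by ring); linear_combination (-1 : F) * this
      have e42 : g42 = 0 := by have := T 0 1 0 0 0 1 0 0 (by ring); linear_combination (-1 : F) * this
      have e43 : g43 = 0 := by have := T 0 1 0 0 0 0 1 0 (by ring); linear_combination (-1 : F) * this
      have e13 : g13 = 0 := by have := T 0 0 1 0 0 0 1 0 (by ring); linear_combination this
      have e12 : g12 = 0 := by have := T 0 0 1 0 0 1 0 0 (by ring); linear_combination this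
      have e14 : g14 = 0 := by have := T 0 0 1 0 0 0 0 1 (by ring); linear_combination this
      have e24 : g24 = 0 := by have := T 0 0 0 1 0 0 0 1 (by ring); linear_combination this
      have e21 : g21 = 0 := by have := T 0 0 0 1 1 0 0 0 (by ring); linear_combination this
      have e23 : g23 = 0 := by have := T 0 0 0 1 0 0 1 0 (by ring); linear_combination this
      have d1 := T 1 1 0 0 0 0 1 (-1) (by ring)
      have d2 := T 1 0 0 1 0 1 1 0 (by ring)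
      have d3 := T 0 1 1 0 1 0 0 1 (by ring)
      have e44 : g44 = g11 := by linear_combination (-1 : F) * d3 - e41 + e14
      have e33 : g33 = g11 := by linear_combination (-1 : F) * d1 + e34 - e43 + e44
      have e22 : g22 = g11 := by linear_combination d2 + e32 - e23 + e33
      have hGs : G.1 = m4 g11 0 0 0 0 g11 0 0 0 0 g11 0 0 0 0 g11 := by
        rw [hGm]
        exact m4_congr rfl e12 e13 e14 e21 e22 e23 e24 e31 e32 e33 e34 e41 e42 e43 e44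
      rw [Subgroup.mem_center_iff]
      intro g
      obtain ⟨b11, b12, b13, b14, b21, b22, b23, b24, b31, b32, b33, b34, b41, b42, b43, b44, hg⟩ :
          ∃ b11 b12 b13 b14 b21 b22 b23 b24 b31 b32 b33 b34 b41 b42 b43 b44 : F,
            g.1 = m4 b11 b12 b13 b14 b21 b22 b23 b24 b31 b32 b33 b34 b41 b42 b43 b44 :=
        ⟨_, _, _, _, _, _, _, _, _, _, _, _, _, _, _, _, m4_eta g.1⟩
      apply Subtype.ext
      show g.1 * G.1 = G.1 * g.1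
      rw [hGs, hg, m4_mul, m4_mul]
      refine m4_congr ?_ ?_ ?_ ?_ ?_ ?_ ?_ ?_ ?_ ?_ ?_ ?_ ?_ ?_ ?_ ?_ <;> ring
    have h4 : om w (G.1 *ᵥ v) = -om v (G.1 *ᵥ w) := by
      have := hq (v + w)
      rw [Matrix.mulVec_add, om_add_left, om_add_right, om_add_right, hq v, hq w] at this
      linear_combination this
    exact alt_vec t n ni di hn hd G v w a2 c2 hc2 hQ h1 (hq v) (hq w) h4 h2
  · push Not at hq
    obtain ⟨v, hv⟩ := hq
    obtain ⟨gv, hgv⟩ : ∃ gv, gv = G.1 *ᵥ v := ⟨_, rfl⟩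
    rw [← hgv] at hv
    obtain ⟨q, hq'⟩ : ∃ q, q = om v gv := ⟨_, rfl⟩
    rw [← hq'] at hv
    obtain ⟨s, hs⟩ : ∃ s, s * q = -1 := ⟨-q⁻¹, by field_simp⟩
    obtain ⟨h, hh1, hh3⟩ := witt v (s • gv) (by rw [om_smul_right, ← hq']; exact hs)
    have hcol : (h⁻¹ * G * h).1 *ᵥ v4 1 0 0 0 = v4 0 0 (-q) 0 := by
      rw [coe_mul', coe_mul', ← Matrix.mulVec_mulVec, ← Matrix.mulVec_mulVec, hh1, ← hgv]
      have e : gv = h.1 *ᵥ v4 0 0 (-q) 0 := by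
        have e1 : v4 (0 : F) 0 (-q) 0 = (-q) • v4 0 0 1 0 := by
          rw [v4_smul]
          exact v4_congr (by ring) (by ring) (by ring) (by ring)
        rw [e1, Matrix.mulVec_smul, hh3, smul_smul]
        have : -q * s = 1 := by linear_combination (-1 : F) * hs
        rw [this, one_smul]
      rw [e, Matrix.mulVec_mulVec, inv_mul_coe, Matrix.one_mulVec]
    rcases fact_col t n ni di hn ht hd hF (h⁻¹ * G * h) (-q) (neg_ne_zero.mpr hv) hcol with hf | hf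
    · left
      exact Fact2.of_conj h hf
    · right
      have e : negOne * (h⁻¹ * G * h) = h⁻¹ * (negOne * G) * h := by
        have hz := (Subgroup.mem_center_iff.mp negOne_mem_center) h⁻¹
        rw [← mul_assoc, ← mul_assoc, ← mul_assoc, hz]
      rw [e] at hf
      exact Fact2.of_conj h hf

end Cfsg.Agent.Lib.Helper79.PSp4
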